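import Cfsg.Agent.Lib.Chev.ElOrd
import Cfsg.Agent.Lib.Calc.Basic

/-! The fundamental alcove and the elements of small order in the torus of type `E₈`. -/

set_option autoImplicit false

namespace Cfsg.Lib.E8N

open Finset Matrix Cfsg.Lie Cfsg.Lib.Chev Cfsg.Lib.Chev.RootSys

theorem exists_alcove {ι Φ : Type} [Fintype ι] [DecidableEq ι] [Fintype Φ] {R : RootSys ι Φ}
    {A : Type*} [CommGroup A] {ρ : ι → ℤ} (hρ : ∀ i, R.ev (R.simple i) ρ = 1) {θ : Φ} {h : ℤ}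
    (h0 : 0 < h) (hθ : R.ev θ ρ < h) {ζ : A} {N : ℕ} (hN : 0 < N) (hζ : ζ ^ N = 1) (y : ι → ℤ) :
    ∃ z : ι → ℤ, ∃ w ∈ R.W, mAct (R.wM w) (fun i => ζ ^ y i) = (fun i => ζ ^ z i) ∧
      (∀ i, 0 ≤ R.ev (R.simple i) z) ∧ R.ev θ z ≤ N := by
  induction e : (R.nrm (h • y - (N : ℤ) • ρ) (h • y - (N : ℤ) • ρ)).toNat using Nat.strong_induction_on
    generalizing y with | _ m ih
  have key : ∀ (r : Φ) (c : ℤ), 0 < (R.ev r y - c * N) * (h * c - R.ev r ρ) →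
      ∃ z : ι → ℤ, ∃ w ∈ R.W, mAct (R.wM w) (fun i => ζ ^ y i) = (fun i => ζ ^ z i) ∧
        (∀ i, 0 ≤ R.ev (R.simple i) z) ∧ R.ev θ z ≤ N := fun r c hc => by
    refine (ih _ ?_ (y - (R.ev r y - c * N) • R.co r) rfl).elim fun z ⟨w, hw, h1, h2⟩ =>
      ⟨z, w * R.refl r, mul_mem hw (R.refl_mem_W r), ?_, h2⟩
    swap
    · rw [(isAut_of_mem_W hw).wM_mul, mAct_mul, mAct_zpow, wM_refl, ← h1]
      congr 1
      ext i : 1
      rw [show (y - (R.ev r y - c * N) • R.co r) i = (y - R.ev r y • R.co r) i + N * (c * R.co r i) by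
        simp; ring, _root_.zpow_add, _root_.zpow_mul, zpow_natCast, hζ, _root_.one_zpow, mul_one]
    · rw [← e, show h • (y - (R.ev r y - c * N) • R.co r) - (N : ℤ) • ρ =
        h • y - (N : ℤ) • ρ - (h * (R.ev r y - c * N)) • R.co r by module]
      have hlt : ∀ {a b : ℤ}, 0 ≤ a → a < b → a.toNat < b.toNat := fun _ _ => by omega
      refine hlt (nrm_self_nonneg _) ?_
      rw [nrm_sub_co, map_sub, map_smul, map_smul, smul_eq_mul, smul_eq_mul, sub_lt_self_iff]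
      refine mul_pos ?_ (nrm_co_pos r)
      have := mul_pos (mul_pos h0 (Nat.cast_pos.2 hN)) hc
      linarith
  by_cases h1 : ∀ i, 0 ≤ R.ev (R.simple i) y
  · by_cases h2 : R.ev θ y ≤ N
    · exact ⟨y, 1, one_mem _, by rw [wM_one, mAct_one], h1, h2⟩
    · exact key θ 1 (mul_pos (by omega) (by omega))
  · obtain ⟨i, hi⟩ := not_forall.1 h1
    exact key (R.simple i) 0 (by rw [hρ]; omega)

/-- The root system of type `E₈`. -/
noncomputable abbrev R8 : RootSys (Fin 8) (Fin 240) := checkedE8.R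

/-- The positive roots. -/
def pr : List (List ℕ) := [[0, 0, 0, 0, 0, 0, 0, 1], [0, 0, 0, 0, 0, 0, 1, 0], [0, 0, 0, 0, 0, 0, 1, 1], [0, 0, 0, 0, 0, 1, 0, 0], [0,
  0, 0, 0, 0, 1, 1, 0], [0, 0, 0, 0, 0, 1, 1, 1], [0, 0, 0, 0, 1, 0, 0, 0], [0, 0, 0, 0, 1, 1, 0, 0], [0, 0,
  0, 0, 1, 1, 1, 0], [0, 0, 0, 0, 1, 1, 1, 1], [0, 0, 0, 1, 0, 0, 0, 0], [0, 0, 0, 1, 1, 0, 0, 0], [0, 0, 0,
  1, 1, 1, 0, 0], [0, 0, 0, 1, 1, 1, 1, 0], [0, 0, 0, 1, 1, 1, 1, 1], [0, 0, 1, 0, 0, 0, 0, 0], [0, 0, 1, 1,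
  0, 0, 0, 0], [0, 0, 1, 1, 1, 0, 0, 0], [0, 0, 1, 1, 1, 1, 0, 0], [0, 0, 1, 1, 1, 1, 1, 0], [0, 0, 1, 1, 1,
  1, 1, 1], [0, 1, 0, 0, 0, 0, 0, 0], [0, 1, 0, 1, 0, 0, 0, 0], [0, 1, 0, 1, 1, 0, 0, 0], [0, 1, 0, 1, 1, 1,
  0, 0], [0, 1, 0, 1, 1, 1, 1, 0], [0, 1, 0, 1, 1, 1, 1, 1], [0, 1, 1, 1, 0, 0, 0, 0], [0, 1, 1, 1, 1, 0, 0,
  0], [0, 1, 1, 1, 1, 1, 0, 0], [0, 1, 1, 1, 1, 1, 1, 0], [0, 1, 1, 1, 1, 1, 1, 1], [0, 1, 1, 2, 1, 0, 0, 0],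
  [0, 1, 1, 2, 1, 1, 0, 0], [0, 1, 1, 2, 1, 1, 1, 0], [0, 1, 1, 2, 1, 1, 1, 1], [0, 1, 1, 2, 2, 1, 0, 0], [0,
  1, 1, 2, 2, 1, 1, 0], [0, 1, 1, 2, 2, 1, 1, 1], [0, 1, 1, 2, 2, 2, 1, 0], [0, 1, 1, 2, 2, 2, 1, 1], [0, 1,
  1, 2, 2, 2, 2, 1], [1, 0, 0, 0, 0, 0, 0, 0], [1, 0, 1, 0, 0, 0, 0, 0], [1, 0, 1, 1, 0, 0, 0, 0], [1, 0, 1,
  1, 1, 0, 0, 0], [1, 0, 1, 1, 1, 1, 0, 0], [1, 0, 1, 1, 1, 1, 1, 0], [1, 0, 1, 1, 1, 1, 1, 1], [1, 1, 1, 1,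
  0, 0, 0, 0], [1, 1, 1, 1, 1, 0, 0, 0], [1, 1, 1, 1, 1, 1, 0, 0], [1, 1, 1, 1, 1, 1, 1, 0], [1, 1, 1, 1, 1,
  1, 1, 1], [1, 1, 1, 2, 1, 0, 0, 0], [1, 1, 1, 2, 1, 1, 0, 0], [1, 1, 1, 2, 1, 1, 1, 0], [1, 1, 1, 2, 1, 1,
  1, 1], [1, 1, 1, 2, 2, 1, 0, 0], [1, 1, 1, 2, 2, 1, 1, 0], [1, 1, 1, 2, 2, 1, 1, 1], [1, 1, 1, 2, 2, 2, 1,
  0], [1, 1, 1, 2, 2, 2, 1, 1], [1, 1, 1, 2, 2, 2, 2, 1], [1, 1, 2, 2, 1, 0, 0, 0], [1, 1, 2, 2, 1, 1, 0, 0],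
  [1, 1, 2, 2, 1, 1, 1, 0], [1, 1, 2, 2, 1, 1, 1, 1], [1, 1, 2, 2, 2, 1, 0, 0], [1, 1, 2, 2, 2, 1, 1, 0], [1,
  1, 2, 2, 2, 1, 1, 1], [1, 1, 2, 2, 2, 2, 1, 0], [1, 1, 2, 2, 2, 2, 1, 1], [1, 1, 2, 2, 2, 2, 2, 1], [1, 1,
  2, 3, 2, 1, 0, 0], [1, 1, 2, 3, 2, 1, 1, 0], [1, 1, 2, 3, 2, 1, 1, 1], [1, 1, 2, 3, 2, 2, 1, 0], [1, 1, 2,
  3, 2, 2, 1, 1], [1, 1, 2, 3, 2, 2, 2, 1], [1, 1, 2, 3, 3, 2, 1, 0], [1, 1, 2, 3, 3, 2, 1, 1], [1, 1, 2, 3,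
  3, 2, 2, 1], [1, 1, 2, 3, 3, 3, 2, 1], [1, 2, 2, 3, 2, 1, 0, 0], [1, 2, 2, 3, 2, 1, 1, 0], [1, 2, 2, 3, 2,
  1, 1, 1], [1, 2, 2, 3, 2, 2, 1, 0], [1, 2, 2, 3, 2, 2, 1, 1], [1, 2, 2, 3, 2, 2, 2, 1], [1, 2, 2, 3, 3, 2,
  1, 0], [1, 2, 2, 3, 3, 2, 1, 1], [1, 2, 2, 3, 3, 2, 2, 1], [1, 2, 2, 3, 3, 3, 2, 1], [1, 2, 2, 4, 3, 2, 1,
  0], [1, 2, 2, 4, 3, 2, 1, 1], [1, 2, 2, 4, 3, 2, 2, 1], [1, 2, 2, 4, 3, 3, 2, 1], [1, 2, 2, 4, 4, 3, 2, 1],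
  [1, 2, 3, 4, 3, 2, 1, 0], [1, 2, 3, 4, 3, 2, 1, 1], [1, 2, 3, 4, 3, 2, 2, 1], [1, 2, 3, 4, 3, 3, 2, 1], [1,
  2, 3, 4, 4, 3, 2, 1], [1, 2, 3, 5, 4, 3, 2, 1], [1, 3, 3, 5, 4, 3, 2, 1], [2, 2, 3, 4, 3, 2, 1, 0], [2, 2,
  3, 4, 3, 2, 1, 1], [2, 2, 3, 4, 3, 2, 2, 1], [2, 2, 3, 4, 3, 3, 2, 1], [2, 2, 3, 4, 4, 3, 2, 1], [2, 2, 3,
  5, 4, 3, 2, 1], [2, 2, 4, 5, 4, 3, 2, 1], [2, 3, 3, 5, 4, 3, 2, 1], [2, 3, 4, 5, 4, 3, 2, 1], [2, 3, 4, 6,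
  4, 3, 2, 1], [2, 3, 4, 6, 5, 3, 2, 1], [2, 3, 4, 6, 5, 4, 2, 1], [2, 3, 4, 6, 5, 4, 3, 1], [2, 3, 4, 6, 5,
  4, 3, 2]]

/-- The inverse of the Cartan matrix. -/
def gm : List (List ℕ) := [[4, 5, 7, 10, 8, 6, 4, 2], [5, 8, 10, 15, 12, 9, 6, 3], [7, 10, 14, 20, 16, 12, 8, 4],
  [10, 15, 20, 30, 24, 18, 12, 6], [8, 12, 16, 24, 20, 15, 10, 5], [6, 9, 12, 18, 15, 12, 8, 4],
  [4, 6, 8, 12, 10, 8, 6, 3], [2, 3, 4, 6, 5, 4, 3, 2]]

/-- The dot product of lists. -/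
noncomputable def dot (a : List ℕ) : List ℕ → ℕ :=
  List.rec (fun _ => 0) (fun x _ ih s => List.rec 0 (fun y t _ => Nat.add (Nat.mul x y) (ih t)) s) a

@[simp] theorem dot_nil (s : List ℕ) : dot [] s = 0 := rfl
@[simp] theorem dot_nil' (a : List ℕ) : dot a [] = 0 := by cases a <;> rfl
@[simp] theorem dot_cons (x y : ℕ) (a s : List ℕ) : dot (x :: a) (y :: s) = x * y + dot a s := rfl

/-- The number of positive roots whose value satisfies a condition. -/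
noncomputable def cnt (s : List ℕ) (p : ℕ → Bool) : ℕ :=
  List.rec 0 (fun a _ ih => cond (p (dot a s)) (Nat.succ ih) ih) pr

theorem cnt_eq (s : List ℕ) (p : ℕ → Bool) : cnt s p = pr.countP fun a => p (dot a s) := by
  unfold cnt
  induction pr with
  | nil => rfl
  | cons a l ih => rw [List.countP_cons, ← ih]; cases h : p (dot a s) <;> simp [h]

/-- The quadratic form. -/
noncomputable def qf (s : List ℕ) : ℕ := dot s (List.rec [] (fun a _ ih => dot a s :: ih) gm)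

/-- The number of positive roots with value `± j` modulo `N`. -/
noncomputable def cj (N : ℕ) (s : List ℕ) (j : ℕ) : ℕ :=
  cnt s fun v => Calc.bor (Nat.beq (Nat.mod v N) j) (Nat.beq (Nat.mod (Nat.add v j) N) 0)

/-- The dimension of the centralizer of the `k`-th power. -/
noncomputable def dz (N : ℕ) (s : List ℕ) (k : ℕ) : ℕ :=
  8 + 2 * cnt s fun v => Nat.beq (Nat.mod (Nat.mul k v) N) 0

/-- A loop over the points of an alcove. -/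
noncomputable def alc (P : List ℕ → Bool) (ms : List ℕ) : ℕ → List ℕ → Bool :=
  List.rec (fun _ acc => P acc) (fun a _ ih rem acc => Calc.allLt (Nat.succ (Nat.div rem a)) fun t =>
    Calc.forceB (Nat.sub rem (Nat.mul a t)) fun r => ih r (t :: acc)) ms

theorem alc_spec {P : List ℕ → Bool} {ms : List ℕ} (h0 : ∀ a ∈ ms, 0 < a) {rem : ℕ} {acc : List ℕ}
    (h : alc P ms rem acc = true) {s : List ℕ} (hs : s.length = ms.length) (hd : dot ms s ≤ rem) :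
    P (s.reverse ++ acc) = true := by
  induction ms generalizing rem acc s with
  | nil => rw [List.length_eq_zero_iff.1 hs]; exact h
  | cons a ms ih =>
    obtain _ | ⟨t, s⟩ := s
    · simp at hs
    rw [dot_cons] at hd
    have h1 := Calc.of_allLt (n := Nat.succ (Nat.div rem a)) (f := fun t =>
      Calc.forceB (Nat.sub rem (Nat.mul a t)) fun r => alc P ms r (t :: acc)) h (i := t)
      (Nat.lt_succ_of_le ((Nat.le_div_iff_mul_le (h0 a List.mem_cons_self)).2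
        (by rw [mul_comm]; omega)))
    simp only [Calc.forceB_eq] at h1
    rw [List.reverse_cons, List.append_assoc]
    exact ih (fun b hb => h0 b (List.mem_cons_of_mem _ hb)) h1 (by simpa using hs)
      (Nat.le_sub_of_add_le' hd)

theorem rt_eq : ((List.finRange 240).map fun r => List.ofFn fun i : Fin 8 => aN chevE8 certE8 r.val i) =
    (pr.reverse.map fun a => a.map fun x : ℕ => (-1 : ℤ) * x) ++
      pr.map fun a => a.map fun x : ℕ => (1 : ℤ) * x := by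
  decide +kernel

theorem pair_eq (i : Fin 8) (r : Fin 240) : R8.pair (R8.simple i) r = caN chevE8 i r :=
  ((caN_eq chevE8 i r).trans (checkedE8.cartan_eq i r)).symm

theorem nrm_co (i : Fin 8) : R8.nrm (R8.co (R8.simple i)) (R8.co (R8.simple i)) = 120 := by
  simp only [nrm, ev_co, pair_eq]
  revert i
  decide +kernel

theorem nrm_eq (y z : Fin 8 → ℤ) : R8.nrm y z = 60 * ∑ i, y i * R8.ev (R8.simple i) z := by
  have h : ∀ i, R8.nrm z (R8.co (R8.simple i)) = 60 * R8.ev (R8.simple i) z := fun i => by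
    have := two_mul_nrm_co (R := R8) z (R8.simple i)
    rw [nrm_co] at this
    omega
  simp only [mul_sum, mul_left_comm (60 : ℤ), ← h, nrm, ev_co]
  rw [sum_comm]
  exact sum_congr rfl fun r _ => by
    rw [ev_apply, sum_mul]; exact sum_congr rfl fun i _ => by ring

/-- A point of the alcove. -/
structure Pt (N : ℕ) (z : Fin 8 → ℤ) (s : List ℕ) : Prop where
  len : s.length = 8
  eq : ∀ i : Fin 8, R8.ev (R8.simple i) z = s.getD i 0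
  le : dot [2, 3, 4, 6, 5, 4, 3, 2] s ≤ N

theorem ev_top (z : Fin 8 → ℤ) :
    R8.ev 239 z = ∑ i, (![2, 3, 4, 6, 5, 4, 3, 2] : Fin 8 → ℤ) i * R8.ev (R8.simple i) z := by
  have h : ∀ i : Fin 8, aN chevE8 certE8 239 i = (![2, 3, 4, 6, 5, 4, 3, 2] : Fin 8 → ℤ) i := by
    decide +kernel
  rw [ev_eq_sum]
  exact sum_congr rfl fun i _ => congrArg (· * _) (h i)

theorem exists_pt {A : Type*} [CommGroup A] {ζ : A} {N : ℕ} (hN : 0 < N) (hζ : ζ ^ N = 1)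
    (y : Fin 8 → ℤ) : ∃ z s, ∃ w ∈ R8.W, mAct (R8.wM w) (fun i => ζ ^ y i) = (fun i => ζ ^ z i) ∧
      Pt N z s := by
  have h1 : ∀ i, R8.ev (R8.simple i) ![46, 68, 91, 135, 110, 84, 57, 29] = 1 := fun i => by
    simp only [ev_apply, pair_eq, checkedE8.simple_val]
    revert i
    decide +kernel
  obtain ⟨z, w, hw, e, h2, h3⟩ := exists_alcove h1 (θ := 239) (h := 30) (by norm_num)
    (by rw [ev_top]; simp only [h1]; decide) hN hζ y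
  refine ⟨z, List.ofFn fun i => (R8.ev (R8.simple i) z).toNat, w, hw, e, by simp, fun i => ?_, ?_⟩
  · rw [List.getD_eq_getElem _ _ (by simp), List.getElem_ofFn, Int.toNat_of_nonneg (h2 _)]
  · rw [ev_top] at h3
    simp only [Fin.sum_univ_succ, List.ofFn_succ, dot_cons] at h3 ⊢
    have := h2 0; have := h2 1; have := h2 2; have := h2 3
    have := h2 4; have := h2 5; have := h2 6; have := h2 7
    simp at h3 ⊢
    omega

namespace Pt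

variable {N : ℕ} {z : Fin 8 → ℤ} {s : List ℕ} (h : Pt N z s)
include h

theorem of_alc {P : List ℕ → Bool} (hP : alc P [2, 3, 4, 5, 6, 4, 3, 2] N [] = true) : P s = true := by
  have := alc_spec (by decide) hP (s := s.reverse) (by simpa using h.len) (by
    have h1 := h.len
    have h2 := h.le
    rcases s with _ | ⟨a, _ | ⟨b, _ | ⟨c, _ | ⟨d, _ | ⟨e, _ | ⟨f, _ | ⟨g, _ | ⟨i, _ | _⟩⟩⟩⟩⟩⟩⟩⟩ <;>
      simp at h1 h2 ⊢
    omega)
  simpa using this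

theorem card (p : ℤ → Prop) [DecidablePred p] (hp : ∀ x, p (-x) ↔ p x) {q : ℕ → Bool}
    (hq : ∀ v : ℕ, p v ↔ q v = true) : #{r | p (R8.ev r z)} = 2 * cnt s q := by
  let f : List ℤ → ℤ := fun l => (List.zipWith (· * ·) l (s.map Nat.cast)).sum
  have h1 : ∀ r, R8.ev r z = f (List.ofFn fun i : Fin 8 => aN chevE8 certE8 r.val i) := fun r => by
    rw [ev_eq_sum]
    simp only [h.eq, f]
    have h1 := h.len
    rcases s with _ | ⟨a, _ | ⟨b, _ | ⟨c, _ | ⟨d, _ | ⟨e, _ | ⟨f, _ | ⟨g, _ | ⟨i, _ | _⟩⟩⟩⟩⟩⟩⟩⟩ <;>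
      simp at h1
    simp [Fin.sum_univ_succ, List.ofFn_succ]
    rfl
  have h2 : ∀ (e : ℤ) (a s : List ℕ), (List.zipWith (· * ·) (a.map fun x : ℕ => e * x)
      (s.map Nat.cast)).sum = e * dot a s := fun e a => by
    induction a with
    | nil => simp
    | cons x a ih =>
      rintro (_ | ⟨y, s⟩)
      · simp
      · rw [List.map_cons, List.map_cons, List.zipWith_cons_cons, List.sum_cons, ih, dot_cons]
        push_cast
        ring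
  have h3 : #{r | p (R8.ev r z)} = ((List.finRange 240).map fun r =>
      List.ofFn fun i : Fin 8 => aN chevE8 certE8 r.val i).countP fun l => p (f l) := by
    rw [List.countP_map, List.countP_eq_length_filter]
    simp only [h1]
    rfl
  rw [h3, rt_eq, List.countP_append, List.countP_map, List.countP_map, List.countP_reverse, two_mul,
    cnt_eq]
  congr 1 <;> refine List.countP_congr fun a _ => ?_
  · simp only [f, Function.comp, h2]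
    simp only [neg_mul, one_mul, hp, hq, decide_eq_true_eq]
  · simp only [f, Function.comp, h2]
    simp only [one_mul, hq, decide_eq_true_eq]

theorem qf_eq : (qf s : ℤ) = ∑ i, z i * R8.ev (R8.simple i) z := by
  have h1 : ∀ i j : Fin 8, ∑ k : Fin 8, ((gm.getD i []).getD k 0 : ℤ) * caN chevE8 j (R8.simple k) =
      if i = j then 1 else 0 := by
    change ∀ i j : Fin 8, ∑ k : Fin 8, ((gm.getD i []).getD k 0 : ℤ) * caN chevE8 j (chevE8.simple k) = _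
    decide +kernel
  have h2 : ∀ i : Fin 8, z i = ∑ k : Fin 8, ((gm.getD i []).getD k 0 : ℤ) * s.getD k 0 := fun i => by
    simp only [← h.eq]
    simp only [ev_apply, pair_eq, mul_sum]
    rw [sum_comm]
    simp only [mul_left_comm _ (z _), ← mul_sum, h1]
    simp
  simp only [h.eq]
  rw [sum_congr rfl fun i _ => congrArg (· * _) (h2 i)]
  have h1 := h.len
  rcases s with _ | ⟨a, _ | ⟨b, _ | ⟨c, _ | ⟨d, _ | ⟨e, _ | ⟨f, _ | ⟨g, _ | ⟨i, _ | _⟩⟩⟩⟩⟩⟩⟩⟩ <;>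
    simp at h1
  simp [qf, gm, Fin.sum_univ_succ]
  ring

variable {w : Equiv.Perm (Fin 240)} (hw : w ∈ R8.W) {u : Fin 8 → ℤ}
  (hu : R8.wM w *ᵥ z = (3 : ℤ) • z + (N : ℤ) • u)
include hw hu

theorem dvd_qf (hN : N.Coprime 2) : N ∣ qf s := by
  have h1 := (isAut_of_mem_W hw).nrm_wM z z
  have h2 : ∀ a b c : Fin 8 → ℤ, R8.nrm ((3 : ℤ) • a + (N : ℤ) • b) c =
      3 * R8.nrm a c + N * R8.nrm b c := fun a b c => by
    simp only [nrm, map_add, map_smul, smul_eq_mul, mul_sum, ← sum_add_distrib]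
    exact sum_congr rfl fun _ _ => by ring
  rw [hu, h2, nrm_comm z, nrm_comm u, h2, h2, nrm_comm z u, nrm_eq z, nrm_eq u, nrm_eq u,
    ← h.qf_eq] at h1
  refine (hN.pow_right 3).dvd_of_dvd_mul_left (Int.natCast_dvd_natCast.1
    ⟨-(6 * ∑ i, u i * R8.ev (R8.simple i) z + N * ∑ i, u i * R8.ev (R8.simple i) u), ?_⟩)
  push_cast
  linarith

theorem cj_eq (hN : N.Coprime 3) {j : ℕ} (hj : j < N) : cj N s (3 * j % N) = cj N s j := by
  have hq : ∀ j < N, ∀ v : ℕ, ((N : ℤ) ∣ v - j ∨ (N : ℤ) ∣ v + j) ↔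
      Calc.bor (Nat.beq (Nat.mod v N) j) (Nat.beq (Nat.mod (Nat.add v j) N) 0) = true := fun j hj v => by
    rw [Calc.bor_eq_true, Calc.beq_iff, Calc.beq_iff, ← Nat.modEq_iff_dvd, ← Nat.cast_add,
      Int.natCast_dvd_natCast, Nat.dvd_iff_mod_eq_zero, Nat.ModEq, Nat.mod_eq_of_lt hj, eq_comm]
    rfl
  have hp : ∀ (j : ℕ) (x : ℤ), ((N : ℤ) ∣ -x - j ∨ (N : ℤ) ∣ -x + j) ↔
      ((N : ℤ) ∣ x - j ∨ (N : ℤ) ∣ x + j) := fun j x => by
    rw [or_comm, ← dvd_neg, ← dvd_neg (b := -x - j)]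
    congr! 2 <;> ring
  have h1 := h.card (fun x => (N : ℤ) ∣ x - j ∨ (N : ℤ) ∣ x + j) (hp j) (hq j hj)
  have h2 := h.card (fun x => (N : ℤ) ∣ x - (3 * j % N : ℕ) ∨ (N : ℤ) ∣ x + (3 * j % N : ℕ)) (hp _)
    (hq _ (Nat.mod_lt (3 * j) (by omega)))
  refine Nat.eq_of_mul_eq_mul_left two_pos (h2.symm.trans (.trans ?_ h1))
  refine card_bijective w w.bijective fun r => ?_
  have h3 : ∀ a b : ℤ, (N : ℤ) ∣ a - 3 * b → ((N : ℤ) ∣ a ↔ (N : ℤ) ∣ b) := fun a b e => by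
    rw [dvd_iff_dvd_of_dvd_sub e]
    exact ⟨IsCoprime.dvd_of_dvd_mul_left (Nat.isCoprime_iff_coprime.2 hN), fun h => h.mul_left _⟩
  have h4 := (isAut_of_mem_W hw).ev_wM r z
  rw [hu, map_add, map_smul, map_smul, smul_eq_mul, smul_eq_mul] at h4
  have h5 := Nat.mod_add_div (3 * j) N
  simp only [mem_filter, mem_univ, true_and]
  exact or_congr (h3 _ _ ⟨R8.ev (w r) u + (3 * j / N : ℕ), by zify at h5 ⊢; linarith⟩)
    (h3 _ _ ⟨R8.ev (w r) u - (3 * j / N : ℕ), by zify at h5 ⊢; linarith⟩)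

end Pt

open Calc in
theorem alc5 : alc (fun s => bor (Nat.blt 0 (Nat.mod (qf s) 5)) (decide (dz 5 s 1 ∈ [48, 68, 248])))
    [2, 3, 4, 5, 6, 4, 3, 2] 5 [] = true := by decide +kernel

/-- The dimensions of the centralizers of an element of order dividing 8 and of its powers. -/
def l8 : List (ℕ × ℕ × ℕ) := [(30, 60, 120), (32, 60, 120), (32, 64, 120), (34, 66, 136), (34, 70, 136),
  (36, 70, 136), (38, 60, 120), (38, 70, 136), (40, 82, 136), (44, 92, 120), (48, 82, 136), (50, 66, 136),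
  (52, 92, 120), (60, 120, 248), (64, 120, 248), (64, 134, 136), (66, 136, 248), (68, 92, 120),
  (70, 136, 248), (80, 82, 136), (80, 134, 136), (82, 136, 248), (92, 120, 248), (120, 248, 248),
  (134, 136, 248), (136, 248, 248), (248, 248, 248)]

open Calc in
theorem alc8 : alc (fun s => bor (!Nat.beq (cj 8 s 3) (cj 8 s 1)) (decide ((dz 8 s 1, dz 8 s 2, dz 8 s 4) ∈ l8)))
    [2, 3, 4, 5, 6, 4, 3, 2] 8 [] = true := by decide +kernel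

open Calc in
theorem alc11 : alc (fun s => bor (!Nat.beq (cj 11 s 3) (cj 11 s 1)) (bor (!Nat.beq (cj 11 s 9) (cj 11 s 3))
    (bor (Nat.beq (dz 11 s 1) 248) (decide (s = [1, 1, 0, 0, 0, 0, 1, 1])))))
    [2, 3, 4, 5, 6, 4, 3, 2] 11 [] = true := by decide +kernel

open Calc in
theorem alc31 : alc (fun s => bor (Nat.blt 0 (Nat.mod (qf s) 31)) (bor (!Nat.beq (cj 31 s 3) (cj 31 s 1))
    (bor (!Nat.beq (cj 31 s 9) (cj 31 s 3)) (bor (!Nat.beq (cj 31 s 27) (cj 31 s 9))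
      (bor (Nat.ble (dz 31 s 1) 22) (Nat.beq (dz 31 s 1) 248))))))
    [2, 3, 4, 5, 6, 4, 3, 2] 31 [] = true := by decide +kernel

end Cfsg.Lib.E8N
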