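import Cfsg.Agent.Lib.E8N.Lin
import Cfsg.Agent.Lib.E8N.Alc

/-! Fixed spaces of semisimple elements of `E₈(3)` on the adjoint module. -/

set_option autoImplicit false

namespace Cfsg.Lib.E8N

open Finset Matrix Cfsg.Lie Cfsg.Lib.Chev Cfsg.Lib.Chev.RootSys Cfsg.Lib.Alg

/-- The adjoint representation. -/
def rep (D : ChevalleyDatum) (F : Type*) [Field F] : D.group F →* Matrix D.Idx D.Idx F :=
  (Units.coeHom _).comp (D.group F).subtype

theorem rep_injective (D : ChevalleyDatum) (F : Type*) [Field F] : Function.Injective (rep D F) :=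
  Units.val_injective.comp Subtype.val_injective

theorem dg_diagonal {G F : Type*} [Group G] [Field F] [DecidableEq F] {n : Type} [Fintype n]
    [DecidableEq n] {ρ : G →* Matrix n n F} {g : G} {d : n → F} (h : ρ g = diagonal d) :
    dg ρ g = #{i | d i = 1} := by
  have h1 := dg_add_rank (ρ := ρ) g
  rw [h, ← diagonal_one, diagonal_sub, rank_diagonal, Fintype.card_subtype,
    ← card_univ, ← card_filter_add_card_filter_not (s := univ) fun i => d i = 1] at h1
  simpa [sub_eq_zero] using h1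

section

variable {D : ChevalleyDatum} {c : Cert} (h : Checked D c) {F : Type*} [Field F]

theorem rep_x (r : Fin D.nroots) (t : F) : rep D F ((h.gsys F).x r t) = h.T.xA F r t :=
  (h.coe_gx r t).trans (h.x_eq F r t)

theorem rep_torus (hM : (h.gsys F).HMul) (a : Fin D.rank → Fˣ) :
    rep D F (hM.torus a) = diagonal (Sum.elim (fun _ => 1) fun s => (h.R.chr a s : F)) := by
  induction a using Pi.mulSingle_induction with
  | one =>
    rw [map_one, map_one, ← diagonal_one]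
    congr 1
    ext (_ | _) <;> simp [chr_one]
  | mul a b ha hb =>
    rw [map_mul, map_mul, ha, hb, diagonal_mul_diagonal]
    congr 1
    ext (_ | _) <;> simp [chr_mul]
  | mulSingle i t =>
    rw [hM.torus_mulSingle, ← mono_one_eq_diagonal]
    simp only [chr_mulSingle]
    exact congrArg Units.val ((h.base' F).h_simple_eq i t)

theorem exists_emb (hD : D ∈ types) (p : ℕ) [Fact p.Prime]
    (h0 : h.R.kerChr (AlgebraicClosure (ZMod p)) = ⊥) :
    ∃ φ, ∃ _ : (h.gsys (AlgebraicClosure (ZMod p))).Alg h.T p φ,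
      ∃ ι : D.group (ZMod p) →* D.group (AlgebraicClosure (ZMod p)), (∀ g, ι g ∈ fix (φ ^ 1)) ∧
        ∀ g, rep D _ (ι g) = (rep D _ g).map (algebraMap (ZMod p) _) := by
  obtain ⟨φ, ha⟩ := (h.gsys_faithful (AlgebraicClosure (ZMod p))).exists_alg p
    (exists_pow_pow_eq (ZMod p) p) (h.gsys_adjoint _).hMul (h.gsys_strongComm _) (h.noA1 hD)
    (h.gsys_grp _) (by
      rw [← MonoidHom.ker_eq_bot_iff, (h.gsys_adjoint _).ker_torus (h.gsys_faithful _), h0])
    (rep D _) (rep_injective D _) (fun r i j => by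
      simpa only [rep_x, one_mul] using h.T.xA_poly r (1 : AlgebraicClosure (ZMod p)) i j)
    fun r t => by
      rw [rep_x, rep_x]
      exact (h.T.xA_map (frobenius _ p) _ _).symm
  have hF : Nat.card (ZMod p) = p ^ 1 := by simp
  obtain ⟨e, he⟩ := ha.exists_equiv (algebraMap (ZMod p) _) hF (h.noA1 hD) (h.gsys_strongComm _)
    (h.gsys_faithful _) (h.gsys_adjoint _) (h.gsys_grp _)
    (kerChr_eq_bot_of_ringHom (algebraMap (ZMod p) _) h0)
  refine ⟨φ, ha, (Subgroup.subtype _).comp e.symm.toMonoidHom, fun g => (e.symm g).2, fun g => ?_⟩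
  refine DFunLike.congr_fun (MonoidHom.eq_of_eqOn_dense (h.gsys_grp (ZMod p))
    (f := (rep D _).comp ((Subgroup.subtype _).comp e.symm.toMonoidHom))
    (g := (algebraMap (ZMod p) _).mapMatrix.toMonoidHom.comp (rep D _)) ?_) g
  rintro _ ⟨r, -, t, rfl⟩
  have : e.symm ((h.gsys (ZMod p)).x r t) = _ := e.symm_apply_eq.2 (he r t).symm
  refine (congrArg (fun a => rep D _ a.1) this).trans (((rep_x h r _).trans
    (h.T.xA_map _ r t).symm).trans (congrArg (Matrix.map · _) (rep_x h r t).symm))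

/-- The grading of the adjoint module modulo `M` by a cocharacter. -/
def grd (M : ℕ) (y : Fin D.rank → ℤ) : D.Idx → ℕ :=
  Sum.elim (fun _ => 0) fun r => (h.R.ev r y % M).toNat

theorem exists_tor_aux (hD : D ∈ types) (h0 : h.R.kerChr (AlgebraicClosure (ZMod 3)) = ⊥)
    {N : ℕ} (hN : N.Coprime 3) {x : D.group (ZMod 3)} (hx : x ^ N = 1)
    {P : (Fin D.rank → ℤ) → Prop} (hP : ∀ (ζ : (AlgebraicClosure (ZMod 3))ˣ), ζ ^ N = 1 →
      ∀ y : Fin D.rank → ℤ, ∃ z,
      ∃ w ∈ h.R.W, mAct (h.R.wM w) (fun i => ζ ^ y i) = (fun i => ζ ^ z i) ∧ P z) :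
    ∃ z, P z ∧ (∀ j : ℕ, dg (rep D _) (x ^ j) = D.rank + #{r | (N : ℤ) ∣ j * h.R.ev r z}) ∧
      (∀ (g : D.group (ZMod 3)) (m : ℕ), g * x * g⁻¹ = x ^ m →
        ∃ w ∈ h.R.W, ∃ u, h.R.wM w *ᵥ z = (3 * m : ℤ) • z + (N : ℤ) • u) ∧
      ∀ u : D.group (ZMod 3), Commute u x → u ^ 3 = 1 → ∀ (M : ℕ) (y : Fin D.rank → ℤ), M.Coprime 3 →
        (∀ r, (N : ℤ) ∣ h.R.ev r z → (M : ℤ) ∣ h.R.ev r y) →
        (rep D _ u - 1).rank ≤ ∑ i ∈ range M, 2 * #{a | grd h M y a = i} / 3 := by
  classical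
  obtain ⟨φ, ha, ι, h1, h2⟩ := exists_emb h hD 3 h0
  have hc : ∀ {N : ℕ}, N.Coprime 3 → (N : AlgebraicClosure (ZMod 3)) ≠ 0 := fun {N} hN e =>
    absurd (hN.symm.eq_one_of_dvd ((CharP.cast_eq_zero_iff _ 3 N).1 e)) (by decide)
  have hr : ∀ g, (rep D _ (ι g) - 1).rank = (rep D _ g - 1).rank := fun g => by
    rw [h2, ← Modular.rank_map_ringHom (algebraMap (ZMod 3) (AlgebraicClosure (ZMod 3))),
      Matrix.map_sub _ (map_sub _), Matrix.map_one _ (map_zero _) (map_one _)]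
  obtain ⟨ζ, hζ, hζ'⟩ := exists_primitive (hc hN)
  have hd : ∀ a : ℤ, ζ ^ a = 1 ↔ (N : ℤ) ∣ a := fun a => by rw [← orderOf_dvd_iff_zpow_eq_one, hζ]
  obtain ⟨a, b, w₀, hw₀, e1, e2, e3⟩ := ha.exists_w_of_fix (h1 x) (Nat.Coprime.of_dvd_left
    (orderOf_dvd_of_pow_eq_one (by rw [← map_pow, hx, map_one])) hN)
  have hb : b ^ N = 1 := orderOf_dvd_iff_pow_eq_one.1
    (e2 ▸ orderOf_dvd_of_pow_eq_one (by rw [← map_pow, hx, map_one]))
  choose y hy using fun i => Subgroup.mem_zpowers_iff.1 (hζ' (b i) (congrFun hb i))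
  obtain rfl := funext hy
  obtain ⟨z, w, hw, e4, hz⟩ := hP ζ (hζ ▸ pow_orderOf_eq_one ζ) y
  obtain ⟨n, hn⟩ := (h.gsys (AlgebraicClosure (ZMod 3))).exists_nw_of_mem_W hw
  have e5 : ι x = a * n⁻¹ * ha.tor (fun i => ζ ^ z i) * (a * n⁻¹)⁻¹ := by
    rw [← e4, ← ha.hMul.nw_conj_torus hn, e1]; group
  have e6 : ∀ j : ℕ, (fun i => ζ ^ z i) ^ j = fun i => ζ ^ ((j : ℤ) • z) i := fun j => funext fun i => by
    rw [Pi.pow_apply, ← zpow_natCast, ← _root_.zpow_mul, mul_comm]; rfl
  generalize a * n⁻¹ = a at e5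
  refine ⟨z, hz, fun j => ?_, fun g m e => ?_, fun u hu h3 M y' hM hy' => ?_⟩
  · have e7 := dg_add_rank (ρ := rep D _) (ι (x ^ j))
    rw [hr, ← dg_add_rank (ρ := rep D _) (x ^ j), add_left_inj] at e7
    rw [← e7, map_pow, e5, conj_pow, dg_conj, ← map_pow, e6, dg_diagonal (rep_torus h _ _),
      card_filter, Fintype.sum_sum_type, card_filter]
    simp only [Sum.elim_inl, Sum.elim_inr, chr_zpow, ← hd, map_smul, smul_eq_mul, Units.val_eq_one]
    simp
  · obtain ⟨v, hv, e7⟩ := ha.faithful.exists_mAct_of_conj ha.hMul ha.inj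
      (ha.mem (((φ ^ 1) a)⁻¹ * ι g * a)) (c := fun i => ζ ^ z i)
      (c' := (fun i => ζ ^ z i) ^ (3 * m)) (by
        have e8 := h1 x
        have e9 := congrArg ι e
        rw [mem_fix, e5, map_mul, map_mul, ha.pow_tor, map_inv, ← e5] at e8
        rw [map_mul, map_mul, map_inv, map_pow, ← e8, conj_pow, e8, e5, ← map_pow, ← pow_mul] at e9
        rw [pow_one 3, eq_mul_inv_iff_mul_eq, ← inv_mul_eq_iff_eq_mul] at e9
        rw [show ha.hMul.torus (_ ^ _) = _ from e9.symm]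
        group)
    rw [mAct_zpow, e6] at e7
    choose u hu using fun i => (hd ((h.R.wM v *ᵥ z) i - (((3 * m : ℕ) : ℤ) • z) i)).1 (by
      rw [_root_.zpow_sub, congrFun e7 i, mul_inv_cancel])
    exact ⟨v, hv, u, funext fun i => by simpa [sub_eq_iff_eq_add'] using hu i⟩
  · obtain ⟨ξ, hξ, -⟩ := exists_primitive (hc hM)
    have hM0 : (0 : ℤ) < M := Nat.cast_pos.2 (Nat.pos_of_ne_zero fun e => hc hM (by simp [e]))
    have e7 : a⁻¹ * ι u * a ∈ Subgroup.centralizer {ha.tor fun i => ζ ^ z i} := by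
      rw [Subgroup.mem_centralizer_singleton_iff]
      have := (hu.map ι).eq
      rw [e5] at this
      calc _ = a⁻¹ * (ι u * (a * ha.tor (fun i => ζ ^ z i) * a⁻¹)) * a := by group
        _ = _ := by rw [this]; group
    rw [ha.centralizer_tor] at e7
    have e8 := congrArg (rep D _) (Subgroup.mem_centralizer_singleton_iff.1
      (ha.hMul.le_centralizer (fun i => ξ ^ y' i) (SetLike.le_def.1 (sup_le_sup_left
        (PreSys.XS_mono _ fun r hr => by
          simp only [Set.mem_setOf_eq, chr_zpow] at hr ⊢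
          rw [← orderOf_dvd_iff_zpow_eq_one, hξ]
          exact hy' r ((hd _).1 hr)) _) e7)))
    rw [← hr, ← rank_conj (ρ := rep D _) a⁻¹, mul_sub, sub_mul, mul_one, ← map_mul, ← map_mul,
      ← map_mul, inv_inv, inv_mul_cancel, map_one]
    have hl : ∀ i, grd h M y' i < M := by
      rintro (i | r)
      · exact_mod_cast hM0
      · have := Int.emod_lt_of_pos (h.R.ev r y') hM0
        simp only [grd, Sum.elim_inr]
        omega
    refine rank_le_of_cube ?_ _ hl fun i j hij => ?_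
    · have h4 : (a⁻¹ * ι u * a) ^ 3 = 1 := by
        rw [show a⁻¹ * ι u * a = a⁻¹ * ι u * a⁻¹⁻¹ by rw [inv_inv], conj_pow, ← map_pow, h3]; simp
      have : Nonempty D.Idx := (Checked.nonempty_rank hD).map Sum.inl
      rw [← pow_three', sub_pow_char_of_commute _ (Commute.one_right _), ← map_pow, h4]
      simp
    · have e9 : ∀ i, Sum.elim (fun _ => 1) (fun s => (h.R.chr (fun i => ξ ^ y' i) s :
          AlgebraicClosure (ZMod 3))) i = ((ξ ^ grd h M y' i : (AlgebraicClosure (ZMod 3))ˣ) : _) := by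
        rintro (i | r)
        · simp [grd]
        · simp only [grd, Sum.elim_inr, chr_zpow]
          rw [← zpow_natCast, Int.toNat_of_nonneg (Int.emod_nonneg _ hM0.ne'), ← hξ, zpow_mod_orderOf]
      have e10 := congrFun (congrFun e8 i) j
      rw [map_mul, map_mul (rep D _) (ha.hMul.torus _), rep_torus, mul_diagonal, diagonal_mul, e9, e9,
        mul_comm] at e10
      rw [Matrix.sub_apply, one_apply_ne fun e => hij (congrArg _ e), sub_zero]
      refine by_contra fun e => hij ?_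
      have e11 := pow_eq_pow_iff_modEq.1 (Units.val_injective (mul_right_cancel₀ e e10))
      rw [hξ] at e11
      exact (Nat.ModEq.eq_of_lt_of_lt e11 (hl j) (hl i)).symm

end

theorem aeval_mulVec {R n : Type*} [CommRing R] [Fintype n] [DecidableEq n] {M : Matrix n n R}
    {v : n → R} {a : R} (h : M *ᵥ v = a • v) (P : Polynomial R) :
    Polynomial.aeval M P *ᵥ v = P.eval a • v := by
  induction P using Polynomial.induction_on with
  | C b => simp [Algebra.algebraMap_eq_smul_one, smul_mulVec]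
  | add P Q hP hQ => simp [add_mulVec, hP, hQ, add_smul]
  | monomial k b ih =>
    rw [pow_succ, ← mul_assoc, map_mul, Polynomial.aeval_X, ← mulVec_mulVec, h, mulVec_smul, ih,
      Polynomial.eval_mul_X, smul_smul, mul_comm]

open Polynomial in
theorem eq_zero_of_eig {ι : Type} [Fintype ι] [DecidableEq ι] {M : Matrix ι ι ℤ} {n : ℕ} (hn : 0 < n)
    (hM : M ^ n = 1) {R : Type} [CommRing R] [IsDomain R] {a : R}
    (ha : Fintype.card ι < (orderOf a).totient) {v : ι → R}
    (h : M.map (Int.castRingHom _) *ᵥ v = a • v) : v = 0 := by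
  have h1 : ∀ (R : Type) [CommRing R] (P : ℤ[X]), aeval (M.map (Int.castRingHom R))
      (P.map (Int.castRingHom R)) = (aeval M P).map (Int.castRingHom R) := fun R _ P =>
    (map_aeval_eq_aeval_map (φ := Int.castRingHom R) (ψ := (Int.castRingHom R).mapMatrix)
      (RingHom.ext_int _ _) P M).symm
  have h2 : aeval M (∏ d ∈ n.divisors with d.totient ≤ Fintype.card ι, cyclotomic d ℤ) = 0 := by
    have h3 : IsUnit (aeval (M.map (Int.castRingHom ℚ))
        (∏ d ∈ n.divisors with ¬ d.totient ≤ Fintype.card ι, cyclotomic d ℚ)) := by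
      obtain ⟨a, b, e⟩ : IsCoprime (∏ d ∈ n.divisors with ¬ d.totient ≤ Fintype.card ι, cyclotomic d ℚ)
          (M.map (Int.castRingHom ℚ)).charpoly := IsCoprime.prod_left fun d hd => by
        rw [mem_filter] at hd
        refine (cyclotomic.irreducible_rat (Nat.pos_of_mem_divisors hd.1)).coprime_iff_not_dvd.2
          fun e => hd.2 ?_
        simpa [natDegree_cyclotomic] using natDegree_le_of_dvd e (charpoly_monic _).ne_zero
      have := congrArg (aeval (M.map (Int.castRingHom ℚ))) e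
      rw [map_add, map_mul, map_mul, aeval_self_charpoly, mul_zero, add_zero, map_one] at this
      exact IsUnit.of_mul_eq_one_right _ this
    have h4 := h1 ℚ (X ^ n - 1)
    rw [map_sub, map_pow, aeval_X, hM, map_one, sub_self, ← prod_cyclotomic_eq_X_pow_sub_one hn,
      ← prod_filter_mul_prod_filter_not _ fun d => d.totient ≤ Fintype.card ι, Polynomial.map_mul, map_mul, h1,
      Polynomial.map_prod] at h4
    simp only [map_cyclotomic, Matrix.map_zero _ (map_zero _)] at h4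
    refine Matrix.map_injective (f := Int.castRingHom ℚ) Int.cast_injective ?_
    simpa using h3.mul_left_eq_zero.1 h4
  have h3 := aeval_mulVec h ((∏ d ∈ n.divisors with d.totient ≤ Fintype.card ι, cyclotomic d ℤ).map
    (Int.castRingHom _))
  rw [h1, h2, Matrix.map_zero _ (map_zero _), zero_mulVec, Polynomial.map_prod, eval_prod] at h3
  refine funext fun i => (mul_eq_zero.1 (congrFun h3.symm i)).resolve_left fun e => ?_
  obtain ⟨d, hd, e⟩ := prod_eq_zero_iff.1 e
  rw [map_cyclotomic] at e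
  rw [mem_filter] at hd
  have h4 : a ^ d = 1 := by
    simpa [e, sub_eq_zero] using eval_dvd (x := a) (cyclotomic.dvd_X_pow_sub_one d R)
  have h6 := Nat.le_of_dvd (Nat.totient_pos.2 (Nat.pos_of_mem_divisors hd.1))
    (Nat.totient_dvd_of_dvd (orderOf_dvd_of_pow_eq_one h4))
  omega

/-- The group `E₈(3)`. -/
abbrev G3 : Type := chevE8.group (ZMod 3)

/-- The dimension of the fixed space on the adjoint module. -/
noncomputable abbrev d3 (x : G3) : ℕ := dg (rep chevE8 (ZMod 3)) x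

theorem card_idx : Fintype.card chevE8.Idx = 248 := by
  rw [Fintype.card_sum, Fintype.card_fin, Fintype.card_fin]; rfl

theorem eq_one_of_d3 {x : G3} (h : d3 x = 248) : x = 1 := by
  have := dg_add_rank (ρ := rep chevE8 (ZMod 3)) x
  rw [card_idx, show dg _ x = 248 from h, Nat.add_eq_left, Matrix.rank, Submodule.finrank_eq_zero,
    LinearMap.range_eq_bot, ← Matrix.mulVecLin_zero] at this
  exact rep_injective _ _ ((sub_eq_zero.1 (Matrix.toLin'.injective this)).trans (map_one _).symm)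

theorem exists_tor {N : ℕ} (hN : N.Coprime 3) {x : G3} (hx : x ^ N = 1) :
    ∃ z s, Pt N z s ∧ (∀ j : ℕ, d3 (x ^ j) = dz N s j) ∧
      (∀ (g : G3) (m : ℕ), g * x * g⁻¹ = x ^ m →
        ∃ w ∈ R8.W, ∃ u, R8.wM w *ᵥ z = (3 * m : ℤ) • z + (N : ℤ) • u) ∧
      ∀ u : G3, Commute u x → u ^ 3 = 1 → ∀ (M : ℕ) (y : Fin 8 → ℤ), M.Coprime 3 →
        (∀ r, (N : ℤ) ∣ R8.ev r z → (M : ℤ) ∣ R8.ev r y) →
        248 ≤ d3 u + ∑ i ∈ range M, 2 * #{a | grd checkedE8 M y a = i} / 3 := by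
  obtain ⟨z, ⟨s, hs⟩, h1, h2, h3⟩ := exists_tor_aux checkedE8 (by simp) (kerDataE8 _).kerChr_eq_bot
    hN hx (P := fun z => ∃ s, Pt N z s) fun ζ hζ y => by
      obtain ⟨z, s, w, hw, e, h⟩ := exists_pt (Nat.pos_of_ne_zero (by rintro rfl; simp at hN)) hζ y
      exact ⟨z, w, hw, e, s, h⟩
  refine ⟨z, s, hs, fun j => (h1 j).trans (congrArg (8 + ·) ?_), h2, fun u hu h4 M y hM hy => ?_⟩
  · refine hs.card (fun a => (N : ℤ) ∣ j * a) (by simp) fun v => ?_
    rw [Calc.beq_iff, ← Nat.cast_mul, Int.natCast_dvd_natCast, Nat.dvd_iff_mod_eq_zero]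
    rfl
  · rw [← card_idx, ← dg_add_rank (ρ := rep chevE8 (ZMod 3)) u]
    exact Nat.add_le_add_left (h3 u hu h4 M y hM hy) _

theorem d3_eight {x : G3} (hx : x ^ 8 = 1) : (d3 x, d3 (x ^ 2), d3 (x ^ 4)) ∈ l8 := by
  obtain ⟨z, s, hs, h1, h2, -⟩ := exists_tor (by decide) hx
  obtain ⟨w, hw, u, hu⟩ := h2 1 1 (by simp)
  have h3 := hs.of_alc alc8
  have h4 := hs.cj_eq hw hu (by decide) (j := 1) (by decide)
  rw [← pow_one x, ← pow_mul, ← pow_mul, h1, h1, h1]
  simpa [Calc.bor_eq_true, ← Bool.not_eq_true, Calc.beq_iff, h4] using h3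

theorem d3_five {x : G3} (hx : x ^ 5 = 1) (h : x ≠ 1) : d3 x = 48 ∨ d3 x = 68 := by
  obtain ⟨z, s, hs, h1, h2, -⟩ := exists_tor (by decide) hx
  obtain ⟨w, hw, u, hu⟩ := h2 1 1 (by simp)
  have h3 := hs.of_alc alc5
  have h4 : Nat.mod (qf s) 5 = 0 := Nat.mod_eq_zero_of_dvd (hs.dvd_qf hw hu (by decide))
  rw [← h1, pow_one, h4] at h3
  simpa [Calc.bor_eq_true, Nat.blt, mt eq_one_of_d3 h] using h3

theorem d3_thirtyone {x : G3} (hx : x ^ 31 = 1) (h : x ≠ 1) : d3 x ≤ 22 := by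
  obtain ⟨z, s, hs, h1, h2, -⟩ := exists_tor (by decide) hx
  obtain ⟨w, hw, u, hu⟩ := h2 1 1 (by simp)
  have h3 := hs.of_alc alc31
  have h4 : Nat.mod (qf s) 31 = 0 := Nat.mod_eq_zero_of_dvd (hs.dvd_qf hw hu (by decide))
  have h5 := hs.cj_eq hw hu (by decide) (j := 1) (by decide)
  have h6 := hs.cj_eq hw hu (by decide) (j := 3) (by decide)
  have h7 := hs.cj_eq hw hu (by decide) (j := 9) (by decide)
  rw [← h1, pow_one, h4] at h3
  simpa [Calc.bor_eq_true, Nat.blt, mt eq_one_of_d3 h, ← Bool.not_eq_true, h5, h6, h7] using h3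

theorem d3_eleven {x : G3} (hx : x ^ 11 = 1) (h : x ≠ 1) :
    d3 x = 28 ∧ ∀ u : G3, Commute u x → u ^ 3 = 1 → 101 ≤ d3 u := by
  obtain ⟨z, s, hs, h1, h2, h3⟩ := exists_tor (by decide) hx
  obtain ⟨w, hw, u, hu⟩ := h2 1 1 (by simp)
  have h4 := hs.of_alc alc11
  have h5 := hs.cj_eq hw hu (by decide) (j := 1) (by decide)
  have h6 := hs.cj_eq hw hu (by decide) (j := 3) (by decide)
  rw [← h1, pow_one] at h4
  obtain rfl : s = [1, 1, 0, 0, 0, 0, 1, 1] := by
    simpa [Calc.bor_eq_true, mt eq_one_of_d3 h, ← Bool.not_eq_true, h5, h6] using h4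
  refine ⟨(pow_one x ▸ h1 1).trans (by decide +kernel), fun u hu h7 => ?_⟩
  have h8 : ∀ i, R8.ev (R8.simple i) ![198, 277, 370, 542, 437, 332, 227, 120] =
      (![26, 12, 0, 0, 0, 0, 2, 13] : Fin 8 → ℤ) i := fun i => by
    simp only [ev_apply, pair_eq, checkedE8.simple_val]
    revert i
    decide +kernel
  have h9 : ∀ r, R8.ev r ![198, 277, 370, 542, 437, 332, 227, 120] =
      ∑ i : Fin 8, aN chevE8 certE8 r i * (![26, 12, 0, 0, 0, 0, 2, 13] : Fin 8 → ℤ) i := fun r => by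
    rw [ev_eq_sum]; simp only [h8]; rfl
  have h10 := h3 u hu h7 37 ![198, 277, 370, 542, 437, 332, 227, 120] (by decide) fun r => by
    rw [h9, ev_eq_sum]
    simp only [hs.eq]
    revert r
    change ∀ r : Fin 240, (11 : ℤ) ∣ ∑ i : Fin 8, aN chevE8 certE8 r i * _ → _
    decide +kernel
  have h11 : ∑ i ∈ range 37, 2 * #{a | grd checkedE8 37 ![198, 277, 370, 542, 437, 332, 227, 120] a = i}
      / 3 ≤ 147 := by
    have : grd checkedE8 37 ![198, 277, 370, 542, 437, 332, 227, 120] = Sum.elim (fun _ => 0)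
        fun r : Fin 240 => ((∑ i : Fin 8, aN chevE8 certE8 r i *
          (![26, 12, 0, 0, 0, 0, 2, 13] : Fin 8 → ℤ) i) % 37).toNat := by
      simp only [← h9]; rfl
    rw [this]
    decide +kernel
  omega

theorem eq_one_of_41 {x g : G3} (hx : x ^ 41 = 1) (h : g * x * g⁻¹ = x ^ 2) : x = 1 := by
  obtain ⟨z, s, hs, h1, h2, -⟩ := exists_tor (by decide) hx
  obtain ⟨w, hw, u, hu⟩ := h2 g 2 h
  have h3 : ∀ n, R8.wM (w ^ n) = R8.wM w ^ n := fun n => by
    induction n with
    | zero => simp [wM_one]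
    | succ n ih => rw [pow_succ', (isAut_of_mem_W hw).wM_mul, ih, pow_succ']
  have h6 : orderOf (6 : ZMod 41) = 40 := (orderOf_eq_iff (by norm_num)).2 (by decide +kernel)
  have : IsDomain (ZMod 41) := @ZMod.instIsDomain 41 ⟨by norm_num⟩
  have h4 := eq_zero_of_eig (M := R8.wM w) (orderOf_pos w) (by rw [← h3, pow_orderOf_eq_one, wM_one])
    (a := (6 : ZMod 41)) (by rw [h6]; decide +kernel) (v := Int.castRingHom _ ∘ z) (by
      ext i
      rw [← RingHom.map_mulVec, hu]
      simp [show (41 : ZMod 41) = 0 from rfl])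
  refine eq_one_of_d3 ((pow_one x ▸ h1 1).trans ?_)
  have h5 := hs.card (fun a => (41 : ℤ) ∣ a) (by simp) (q := fun v => Nat.beq (Nat.mod (Nat.mul 1 v) 41) 0)
    fun v => by
      rw [Calc.beq_iff, show Nat.mul 1 v = v from one_mul v]
      exact Int.natCast_dvd_natCast.trans Nat.dvd_iff_mod_eq_zero
  rw [dz, ← h5, filter_true_of_mem fun r _ => ?_]
  · simp
  · rw [ev_apply]
    exact dvd_sum fun i _ => ((ZMod.intCast_zmod_eq_zero_iff_dvd (z i) 41).1 (congrFun h4 i)).mul_right _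

end Cfsg.Lib.E8N
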