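import Cfsg.Agent.Lib.E8N.Mat
import Cfsg.Agent.Lib.E8N.E8

/-! `E₈(3)` has no subgroup `L₂(41)` or `L₂(32)`. -/

set_option autoImplicit false

namespace Cfsg.Lib.E8N

open Matrix Finset Subgroup Cfsg.Lib.Calc Cfsg.Lie

theorem no_l41 {F : Type*} [Field F] [Fintype F] (hF : Fintype.card F = 41)
    {ψ : SpecialLinearGroup (Fin 2) F →* G3} (hψ : ψ.ker = center _) : False := by
  have h0 : (41 : F) = 0 := by exact_mod_cast hF ▸ FiniteField.cast_card_eq_zero F
  let x : F → SpecialLinearGroup (Fin 2) F := fun t => ⟨!![1, t; 0, 1], by simp⟩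
  let g : SpecialLinearGroup (Fin 2) F := ⟨!![17, 0; 0, 29], by
    rw [det_fin_two_of]; linear_combination 12 * h0⟩
  have h1 : ∀ n : ℕ, x 1 ^ n = x n := fun n => by
    induction n with
    | zero => exact Subtype.ext (by rw [pow_zero, Nat.cast_zero]; exact one_fin_two)
    | succ n ih =>
      rw [pow_succ, ih]
      exact Subtype.ext ((mul_fin_two ..).trans (by simp [x, add_comm]))
  have h2 : g * x 1 = x 1 ^ 2 * g := by
    rw [h1]
    refine Subtype.ext ((mul_fin_two ..).trans (.trans ?_ (mul_fin_two ..).symm))
    simp
    linear_combination -h0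
  have h3 : x 1 ∈ center _ := hψ ▸ MonoidHom.mem_ker.2 (eq_one_of_41 (g := ψ g) (by
    rw [← map_pow, h1, Nat.cast_ofNat, h0, ← Nat.cast_zero, ← h1, pow_zero, map_one])
    (by rw [← map_mul, h2, map_mul, map_pow, mul_inv_cancel_right]))
  rw [mem_center_iff.1 h3, mul_left_inj, pow_two, left_eq_mul] at h2
  simpa [x] using congrArg (fun a : SpecialLinearGroup (Fin 2) F => a 0 1) h2

theorem d3_two {x : G3} (h2 : x ^ 2 = 1) (h : x ≠ 1) : d3 x = 120 ∨ d3 x = 136 := by
  have h1 := d3_eight (x := x) (by rw [show 8 = 2 * 4 from rfl, pow_mul, h2, one_pow])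
  have h3 := mt eq_one_of_d3 h
  rw [h2, show d3 1 = 248 from dg_one.trans card_idx] at h1
  simp [l8] at h1
  omega

/-- Generators of an elementary abelian group of order 32 as words. -/
def wL : List (ℕ × List Bool) := [(32833, [true]), (33697, [false, false, true, false, true, false, true, false, true, false, true,
  false, false, true, false, true, false, true, false, true, false, true, false, false]), (32897,
  [false, true, false, true, false, true, false, true, false, true, false, false, true, false, false,
  true, false, true, false, true, false, true, false, true, false]), (33121, [false, true, false,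
  false, true, false, true, false, true, false, false, true, false, true, false, false, true, false,
  true, false, false, true, false, true, false, true, false, false, true, false]), (33537, [false,
  true, false, true, false, false, true, false, true, false, true, false, false, true, false, false,
  true, false, false, true, false, true, false, true, false, false, true, false, true, false])]

/-- Conjugating elements. -/
def dL : List (ℕ × ℕ) := [(0, 32769), (1, 32769), (1, 852981), (1, 983060), (1, 1016379), (1, 688154), (1, 196750), (1,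
  426319), (1, 98588), (1, 623197), (1, 131497), (1, 720904), (1, 393223), (1, 459142), (1, 66066),
  (1, 951187), (1, 786449), (1, 360464), (1, 294916), (1, 753669), (1, 819210), (1, 525163), (1,
  884799), (1, 655710), (1, 491533), (1, 229420), (1, 557336), (1, 328313), (1, 263126), (1, 164439),
  (1, 918435), (1, 589826)]

theorem no_l32 {F : Type*} [Field F] [Fintype F] (hF : Fintype.card F = 32)
    {ψ : SpecialLinearGroup (Fin 2) F →* G3} (hψ : ψ.ker = center _) : False := by
  obtain ⟨el, Ok, h⟩ := mdl_sl hF hψ
  have ha : Ok 32833 := h.of_ok (by decide +kernel)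
  have hb : Ok 33824 := h.of_ok (by decide +kernel)
  have ht : Ok 1056 := h.of_ok (by decide +kernel)
  have ht' : Ok 18496 := h.of_ok (by decide +kernel)
  have hu : Ok 553009 := h.of_ok (by decide +kernel)
  have hR : allL [32769, 32833] (fun r => band (okL r) (Nat.beq (pw muL 0x8001 r 8) 0x8001)) = true := by
    decide +kernel
  have hE : pc muL 0x8001 okL (wL.map fun w => (w.1, 0)) [] [0x8001]
      (fun L => cjs muL okL [32769, 32833] L dL) = true := by decide +kernel
  have h1 := h.avg8 (rep chevE8 (ZMod 3)) hR hE (k := 5) rfl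
  obtain ⟨L, h2, h3, -⟩ := h.exists_unif hR hE
  have h4 := h.pow_eq_one (k := 2) ha (by decide +kernel)
  have h5 := d3_two h4 (h.ne_one ha hb (by decide +kernel))
  have h6 := dg_add_le (ρ := rep chevE8 (ZMod 3)) (el 1056) (el 18496)
  have h7 := d3_thirtyone (h.pow_eq_one (k := 31) (h.ok_mul ht ht') (by decide +kernel))
    (h.ne_one (h.ok_mul ht ht') ha (by decide +kernel))
  rw [← dg_isConj (h.isConj (k := 621887) ha ht (by decide +kernel)),
    ← dg_isConj (h.isConj (k := 739681) ha ht' (by decide +kernel)), ← h.el_mul ht ht', card_idx] at h6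
  obtain ⟨h8, h9⟩ := d3_eleven (h.pow_eq_one (k := 11) (h.ok_mul ha hb) (by decide +kernel))
    (h.ne_one (h.ok_mul ha hb) ha (by decide +kernel))
  have h10 := h9 (el 553009) (by
    rw [Commute, SemiconjBy, ← h.el_mul hu (h.ok_mul ha hb), ← h.el_mul (h.ok_mul ha hb) hu]
    exact congrArg el (by decide +kernel)) (h.pow_eq_one hu (by decide +kernel))
  rw [d3, dg_isConj (h.isConj (k := 1072) hu hb (by decide +kernel))] at h10
  have c0 : (dL.map Prod.fst).count 0 = 1 := by decide +kernel
  have c1 : (dL.map Prod.fst).count 1 = 31 := by decide +kernel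
  simp only [List.length_cons, List.length_nil, sum_range_succ, range_zero, sum_empty, c0, c1,
    List.getD_cons_zero, List.getD_cons_succ, h.el_one, h4, one_pow, dg_one, card_idx] at h1
  have h11 : fx (rep chevE8 (ZMod 3)) (el '' {a | a ∈ (wL.map fun w => (w.1, 0)).map Prod.fst}) = ⊥ :=
    Submodule.finrank_eq_zero.1 (by
      change dS _ _ = 0
      simp only [d3] at h5 h7
      omega)
  have h12 : Subgroup.closure (el '' {a | a ∈ (wL.map fun w => (w.1, 0)).map Prod.fst}) ≤
      Subgroup.closure {el 32833, el 33824} := (closure_le _).2 (by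
    rintro _ ⟨c, hc, rfl⟩
    have : ∀ w ∈ wL, w.1 = wd2 muL 0x8001 32833 33824 w.2 := by decide +kernel
    simp only [List.map_map, Set.mem_setOf_eq, List.mem_map, Function.comp] at hc
    obtain ⟨w, hw, rfl⟩ := hc
    rw [this w hw]
    exact (h.wd2_spec ha hb _).2)
  rw [← fx_closure] at h11
  have h13 := scott (ρ := rep chevE8 (ZMod 3)) (a := el 32833) (b := el 33824)
    (by rw [← fx_closure, eq_bot_iff, ← h11]; exact fx_anti h12) fun U hU =>
      h2.eq_top (by rw [h3]; decide +kernel) h11 U fun g hg => hU g (h12 hg)
  rw [← h.el_mul ha hb, card_idx] at h13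
  simp only [d3] at h5 h8
  omega

end Cfsg.Lib.E8N
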