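import Cfsg.Agent.Lib.Coprime.LiftMatrix
import Cfsg.Agent.Lib.Modular.Robinson

/-! Dimensions of fixed spaces in a matrix representation. -/

set_option autoImplicit false

namespace Cfsg.Lib.E8N

open Matrix Module Finset Subgroup

variable {G : Type*} [Group G] {F : Type*} [Field F] {n : Type} [Fintype n] [DecidableEq n]
  (ρ : G →* Matrix n n F)

/-- The vectors fixed by a set. -/
def fx (S : Set G) : Submodule F (n → F) where
  carrier := {v | ∀ g ∈ S, ρ g *ᵥ v = v}
  add_mem' ha hb g hg := by rw [mulVec_add, ha g hg, hb g hg]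
  zero_mem' g _ := mulVec_zero _
  smul_mem' c v hv g hg := by rw [mulVec_smul, hv g hg]

/-- The dimension of the fixed space of a set. -/
noncomputable def dS (S : Set G) : ℕ := finrank F (fx ρ S)

/-- The dimension of the fixed space of an element. -/
noncomputable def dg (g : G) : ℕ := dS ρ {g}

variable {ρ}

theorem mem_fx {S : Set G} {v : n → F} : v ∈ fx ρ S ↔ ∀ g ∈ S, ρ g *ᵥ v = v := Iff.rfl

theorem mem_fx_one {g : G} {v : n → F} : v ∈ fx ρ {g} ↔ ρ g *ᵥ v = v := by simp [mem_fx]

theorem fx_anti {S T : Set G} (h : S ⊆ T) : fx ρ T ≤ fx ρ S := fun _ hv g hg => hv g (h hg)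

theorem dS_anti {S T : Set G} (h : S ⊆ T) : dS ρ T ≤ dS ρ S := Submodule.finrank_mono (fx_anti h)

theorem act_mul (a b : G) (v : n → F) : ρ (a * b) *ᵥ v = ρ a *ᵥ ρ b *ᵥ v := by
  rw [map_mul, mulVec_mulVec]

theorem act_inv (a : G) (v : n → F) : ρ a⁻¹ *ᵥ ρ a *ᵥ v = v := by
  rw [← act_mul, inv_mul_cancel, map_one, one_mulVec]

theorem act_inv' (a : G) (v : n → F) : ρ a *ᵥ ρ a⁻¹ *ᵥ v = v := by
  simpa using act_inv (ρ := ρ) a⁻¹ v

theorem fx_closure (S : Set G) : fx ρ (closure S : Set G) = fx ρ S := by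
  refine le_antisymm (fx_anti subset_closure) fun v hv g hg => ?_
  induction hg using closure_induction with
  | mem x hx => exact hv x hx
  | one => rw [map_one, one_mulVec]
  | mul x y _ _ hx hy => rw [act_mul, hy, hx]
  | inv x _ hx => rw [← congrArg (ρ x⁻¹ *ᵥ ·) hx, act_inv]

theorem fx_eq_ker (g : G) : fx ρ {g} = LinearMap.ker (ρ g - 1).mulVecLin := by
  ext v
  rw [mem_fx_one, LinearMap.mem_ker, mulVecLin_apply, sub_mulVec, one_mulVec, sub_eq_zero]

theorem dg_add_rank (g : G) : dg ρ g + (ρ g - 1).rank = Fintype.card n := by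
  rw [dg, dS, fx_eq_ker, add_comm, Matrix.rank, LinearMap.finrank_range_add_finrank_ker,
    finrank_fintype_fun_eq_card]

theorem dg_one : dg ρ 1 = Fintype.card n := by
  simpa using dg_add_rank (ρ := ρ) 1

theorem rank_conj (a : G) (M : Matrix n n F) : (ρ a * M * ρ a⁻¹).rank = M.rank := by
  have h : ∀ b : G, IsUnit (ρ b).det := fun b =>
    (isUnit_iff_isUnit_det _).1 ((Group.isUnit b).map ρ)
  rw [rank_mul_eq_left_of_isUnit_det _ _ (h _), rank_mul_eq_right_of_isUnit_det _ _ (h _)]

theorem dg_conj (a g : G) : dg ρ (a * g * a⁻¹) = dg ρ g := by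
  have h1 := dg_add_rank (ρ := ρ) (a * g * a⁻¹)
  have h2 := dg_add_rank (ρ := ρ) g
  rw [show ρ (a * g * a⁻¹) - 1 = ρ a * (ρ g - 1) * ρ a⁻¹ by
    rw [mul_sub, sub_mul, mul_one, ← map_mul ρ a a⁻¹, mul_inv_cancel, map_one, map_mul, map_mul],
    rank_conj] at h1
  omega

theorem dg_isConj {a b : G} (h : IsConj a b) : dg ρ a = dg ρ b := by
  obtain ⟨c, rfl⟩ := isConj_iff.1 h
  exact (dg_conj c a).symm

theorem dg_add_le (a b : G) : dg ρ a + dg ρ b ≤ Fintype.card n + dg ρ (a * b) := by
  have h1 := Submodule.finrank_sup_add_finrank_inf_eq (fx ρ {a}) (fx ρ {b})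
  have h2 := (fx ρ {a} ⊔ fx ρ {b}).finrank_le
  have h3 : fx ρ {a} ⊓ fx ρ {b} ≤ fx ρ {a * b} := fun v hv =>
    mem_fx_one.2 (by rw [act_mul, mem_fx_one.1 hv.2, mem_fx_one.1 hv.1])
  have h4 := Submodule.finrank_mono h3
  rw [finrank_fintype_fun_eq_card] at h2
  simp only [dg, dS]
  omega

/-- Scott's lemma. -/
theorem scott {a b : G} (h1 : fx ρ {a, b} = ⊥)
    (h2 : ∀ U : Submodule F (n → F), (∀ g ∈ closure {a, b}, ∀ v, ρ g *ᵥ v - v ∈ U) → U = ⊤) :
    dg ρ a + dg ρ b + dg ρ (a * b) ≤ Fintype.card n := by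
  set A := LinearMap.range (ρ a - 1).mulVecLin
  set B := LinearMap.range (ρ b - 1).mulVecLin
  have hm : ∀ (g : G) v, ρ g *ᵥ v - v ∈ LinearMap.range (ρ g - 1).mulVecLin := fun g v =>
    ⟨v, by rw [mulVecLin_apply, sub_mulVec, one_mulVec]⟩
  have h3 : A ⊔ B = ⊤ := h2 _ fun g hg => by
    induction hg using closure_induction with
    | mem x hx =>
      rcases hx with rfl | rfl
      exacts [fun v => Submodule.mem_sup_left (hm _ v), fun v => Submodule.mem_sup_right (hm _ v)]
    | one => simp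
    | mul x y _ _ hx hy =>
      intro v
      rw [act_mul, ← sub_add_sub_cancel _ (ρ y *ᵥ v)]
      exact add_mem (hx _) (hy _)
    | inv x _ hx =>
      intro v
      have := neg_mem (hx (ρ x⁻¹ *ᵥ v))
      rwa [act_inv', neg_sub] at this
  have h4 := Submodule.finrank_sup_add_finrank_inf_eq A B
  have h5 : dg ρ (a * b) ≤ finrank F ↥(A ⊓ B) := by
    refine LinearMap.finrank_le_finrank_of_injective
      (f := (ρ b - 1).mulVecLin.restrict (p := fx ρ {a * b}) (q := A ⊓ B) fun v hv =>
        ⟨?_, v, rfl⟩) ((injective_iff_map_eq_zero _).2 fun v hv => ?_)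
    · have := neg_mem (hm a (ρ b *ᵥ v))
      rw [← act_mul, mem_fx_one.1 hv, neg_sub] at this
      rwa [mulVecLin_apply, sub_mulVec, one_mulVec]
    · have h6 : ρ b *ᵥ v.1 = v.1 := by
        have : (ρ b - 1) *ᵥ v.1 = 0 := congrArg Subtype.val hv
        rwa [sub_mulVec, one_mulVec, sub_eq_zero] at this
      have h7 := mem_fx_one.1 v.2
      rw [act_mul, h6] at h7
      exact Subtype.ext (h1.le (show v.1 ∈ fx ρ {a, b} by simp [mem_fx, h6, h7]))
  have h6 := dg_add_rank (ρ := ρ) a
  have h7 := dg_add_rank (ρ := ρ) b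
  rw [h3, finrank_top, finrank_fintype_fun_eq_card] at h4
  simp only [Matrix.rank] at h6 h7
  simp only [A, B] at h4 h5
  omega

theorem finrank_map_add {V : Type*} [AddCommGroup V] [Module F V] [FiniteDimensional F V]
    (f : V →ₗ[F] V) (W : Submodule F V) :
    finrank F (W.map f) + finrank F ↥(W ⊓ LinearMap.ker f) = finrank F W := by
  rw [← LinearMap.finrank_range_add_finrank_ker (f.domRestrict W), LinearMap.range_domRestrict,
    LinearMap.ker_domRestrict, ← Submodule.finrank_map_subtype_eq, Submodule.map_comap_subtype]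

/-- A block diagonal matrix with vanishing cube has small rank. -/
theorem rank_le_of_cube {N : Matrix n n F} (h3 : N * N * N = 0) (c : n → ℕ) {M : ℕ}
    (hM : ∀ i, c i < M) (hc : ∀ i j, c i ≠ c j → N i j = 0) :
    N.rank ≤ ∑ x ∈ range M, 2 * #{i | c i = x} / 3 := by
  let W : ℕ → Submodule F (n → F) := fun x => Submodule.pi {i | c i ≠ x} fun _ => ⊥
  have hW : ∀ x v, v ∈ W x ↔ ∀ i, c i ≠ x → v i = 0 := fun x v => Iff.rfl
  set f := N.mulVecLin with hf
  have h1 : ∀ x, (W x).map f ≤ W x := by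
    rintro x _ ⟨v, hv, rfl⟩ i hi
    refine sum_eq_zero fun j _ => show N i j * v j = 0 from ?_
    by_cases e : c j = x
    · rw [hc i j (e ▸ hi), zero_mul]
    · rw [(hW x v).1 hv j e, mul_zero]
  have h2 : ∀ x, finrank F ((W x).map f) ≤ 2 * #{i | c i = x} / 3 := fun x => by
    have e1 := finrank_map_add f (W x)
    have e2 := finrank_map_add f ((W x).map f)
    have e3 := finrank_map_add f (((W x).map f).map f)
    have e4 := Submodule.finrank_mono (inf_le_inf_right (LinearMap.ker f) (h1 x))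
    have e5 := Submodule.finrank_mono (inf_le_inf_right (LinearMap.ker f)
      ((Submodule.map_mono (h1 x)).trans (h1 x)))
    rw [← Submodule.map_comp, ← Submodule.map_comp, hf, ← mulVecLin_mul, ← mulVecLin_mul, h3,
      mulVecLin_zero, Submodule.map_zero, finrank_bot, ← hf] at e3
    have e6 : finrank F (W x) ≤ #{i | c i = x} := by
      rw [← Fintype.card_subtype, ← finrank_fintype_fun_eq_card F]
      refine LinearMap.finrank_le_finrank_of_injective
        (f := (LinearMap.funLeft F F Subtype.val).domRestrict (W x))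
        ((injective_iff_map_eq_zero _).2 fun v hv => Subtype.ext (funext fun i => ?_))
      by_cases e : c i = x
      exacts [congrFun hv ⟨i, e⟩, (hW x _).1 v.2 i e]
    omega
  have h4 : ∀ s : Finset ℕ, finrank F ((s.sup W).map f) ≤ ∑ x ∈ s, 2 * #{i | c i = x} / 3 :=
    fun s => by
      induction s using Finset.induction_on with
      | empty => simp
      | insert x s hx ih =>
        rw [sup_insert, Submodule.map_sup, sum_insert hx]
        exact (Submodule.finrank_add_le_finrank_add_finrank _ _).trans (add_le_add (h2 x) ih)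
  have h5 : (range M).sup W = ⊤ := eq_top_iff.2 fun v _ => by
    rw [← univ_sum_single v]
    refine sum_mem fun i _ => le_sup (f := W) (mem_range.2 (hM i)) ((hW _ _).2 fun j hj => ?_)
    exact Pi.single_eq_of_ne (fun e => hj (congrArg c e)) _
  have := h4 (range M)
  rwa [h5, Submodule.map_top] at this

/-- A list that runs uniformly through a subgroup. -/
structure Unif (L : List G) (A : Subgroup G) : Prop where
  one : 1 ∈ L
  mem : ∀ x ∈ L, x ∈ A
  perm : ∀ a ∈ A, (L.map (a * ·)).Perm L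

namespace Unif

variable {L : List G} {A : Subgroup G} (h : Unif L A)
include h

theorem mem_list {a : G} (ha : a ∈ A) : a ∈ L :=
  (h.perm a ha).subset (List.mem_map.2 ⟨1, h.one, mul_one a⟩)

theorem finite : Finite A :=
  (L.finite_toSet.subset fun _ ha => h.mem_list ha).to_subtype

theorem sum_eq {M : Type*} [AddCommMonoid M] [Fintype A] (f : G → M) :
    Fintype.card A • (L.map f).sum = L.length • ∑ a : A, f a := by
  have h1 : ∀ a : A, (L.map fun x => f (a * x)).sum = (L.map f).sum := fun a => by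
    rw [← ((h.perm a a.2).map f).sum_eq, List.map_map]; rfl
  have h2 : ∀ l : List G, (∀ x ∈ l, x ∈ A) →
      ∑ a : A, (l.map fun x => f (a * x)).sum = l.length • ∑ a : A, f a := fun l hl => by
    induction l with
    | nil => simp
    | cons x l ih =>
      simp only [List.map_cons, List.sum_cons, sum_add_distrib, List.length_cons, succ_nsmul']
      rw [ih fun y hy => hl y (List.mem_cons_of_mem _ hy)]
      exact congrArg (· + _) (Equiv.sum_comp (Equiv.mulRight (⟨x, hl x List.mem_cons_self⟩ : A))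
        fun a : A => f a)
  rw [← h2 L h.mem, sum_congr rfl fun a _ => h1 a, sum_const, card_univ]

theorem card_dvd : Nat.card A ∣ L.length := by
  classical
  have := h.finite
  have := Fintype.ofFinite A
  have := h.sum_eq fun x => if x = 1 then 1 else 0
  simp only [OneMemClass.coe_eq_one, sum_ite_eq', mem_univ, if_true, smul_eq_mul, mul_one] at this
  exact ⟨_, by rw [Nat.card_eq_fintype_card, this]⟩

theorem eq_top (hL : (L.length : F) ≠ 0) (h0 : fx ρ A = ⊥) (U : Submodule F (n → F))
    (hU : ∀ g ∈ A, ∀ v, ρ g *ᵥ v - v ∈ U) : U = ⊤ := by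
  refine eq_top_iff.2 fun v _ => (U.smul_mem_iff hL).1 ?_
  have h1 : (L.map fun x => ρ x *ᵥ v).sum = 0 := h0.le fun a ha => by
    rw [← mulVecLin_apply, map_list_sum, ← ((h.perm a ha).map _).sum_eq, List.map_map, List.map_map]
    exact congrArg _ (List.map_congr_left fun x _ => (act_mul a x v).symm)
  have h2 : ∀ l : List G, (∀ x ∈ l, x ∈ A) →
      (l.map fun x => ρ x *ᵥ v).sum - (l.length : F) • v ∈ U := fun l hl => by
    induction l with
    | nil => simp
    | cons x l ih =>
      rw [List.map_cons, List.sum_cons, List.length_cons, Nat.cast_succ, add_smul, one_smul,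
        add_comm _ v, add_sub_add_comm]
      exact add_mem (hU x (hl x List.mem_cons_self) v) (ih fun y hy => hl y (List.mem_cons_of_mem _ hy))
  simpa [h1] using h2 L h.mem

theorem step {g : G} {m : ℕ} (hg : ∀ a ∈ A, g⁻¹ * a * g ∈ A) (hm : g ^ (m + 1) ∈ A) :
    Unif ((List.range (m + 1)).flatMap fun i => L.map (g ^ i * ·)) (A ⊔ zpowers g) := by
  set L' := (List.range (m + 1)).flatMap fun i => L.map (g ^ i * ·) with hL'
  let K : Subgroup G :=
    { carrier := {a | (L'.map (a * ·)).Perm L'}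
      one_mem' := by simp
      mul_mem' := fun {a b} ha hb => by
        refine .trans ?_ ha
        have := List.Perm.map (a * ·) hb
        rw [List.map_map] at this
        exact (List.Perm.of_eq (List.map_congr_left fun x _ => mul_assoc a b x)).trans this
      inv_mem' := fun {a} ha => by
        have := List.Perm.map (a⁻¹ * ·) ha
        rw [List.map_map] at this
        exact this.symm.trans (.of_eq (by simp [Function.comp_def])) }
  have hp : ∀ i, ∀ a ∈ A, (g ^ i)⁻¹ * a * g ^ i ∈ A := fun i => by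
    induction i with
    | zero => simp
    | succ i ih => exact fun a ha => by convert hg _ (ih a ha) using 1; group
  refine ⟨List.mem_flatMap.2 ⟨0, by simp, by simpa using h.one⟩, fun x hx => ?_,
    (sup_le (fun a ha => ?_) (zpowers_le.2 ?_) : _ ≤ K)⟩
  · obtain ⟨i, -, hi⟩ := List.mem_flatMap.1 hx
    obtain ⟨y, hy, rfl⟩ := List.mem_map.1 hi
    exact mul_mem (mem_sup_right (npow_mem_zpowers g i)) (mem_sup_left (h.mem y hy))
  · change (L'.map (a * ·)).Perm L'
    rw [hL', List.map_flatMap]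
    refine List.Perm.flatMap_left _ fun i _ => ?_
    refine .trans (.of_eq ?_) ((h.perm _ (hp i a ha)).map (g ^ i * ·))
    simp [Function.comp_def, mul_assoc]
  · change (L'.map (g * ·)).Perm L'
    have e : L'.map (g * ·) = (List.range (m + 1)).flatMap fun i => L.map (g ^ (i + 1) * ·) := by
      simp [hL', List.map_flatMap, Function.comp_def, pow_succ', mul_assoc]
    rw [e, hL', List.range_succ, List.flatMap_append, ← List.range_succ, List.range_succ_eq_map,
      List.flatMap_singleton, List.flatMap_cons, List.flatMap_map]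
    refine List.perm_append_comm.trans (List.Perm.append_right _ ?_)
    simpa using h.perm _ hm

end Unif

theorem unif_one : Unif [(1 : G)] ⊥ :=
  ⟨by simp, by simp, by simp⟩

theorem sum_pow_eq {M : Type*} [AddCommGroup M] (χ : G → M) {a : G} {N : ℕ} (ha : a ^ N = 1)
    [Fintype (zpowers a)] :
    Fintype.card (zpowers a) • ∑ j ∈ range N, χ (a ^ j) = N • ∑ h : zpowers a, χ h := by
  have hp : ∀ i : ℕ, ∑ j ∈ range N, χ (a ^ j * a ^ i) = ∑ j ∈ range N, χ (a ^ j) := fun i => by
    induction i with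
    | zero => simp
    | succ i ih =>
      have e1 := sum_range_succ (fun j => χ (a ^ j * a ^ i)) N
      rw [sum_range_succ', ha, pow_zero, add_left_inj, ih] at e1
      rw [← e1]
      exact sum_congr rfl fun j _ => by rw [← pow_add, ← pow_add, add_right_comm, add_assoc]
  have h1 : ∀ h : zpowers a, ∑ j ∈ range N, χ (a ^ j * h) = ∑ j ∈ range N, χ (a ^ j) := fun h => by
    obtain ⟨i, hi⟩ := (finite_zpowers.1 (Set.toFinite _)).mem_powers_iff_mem_zpowers.2 h.2
    rw [← hi]
    exact hp i
  rw [← card_univ, ← sum_const, ← sum_congr rfl fun h _ => h1 h, sum_comm, ← card_range N,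
    ← sum_const, card_range]
  exact sum_congr rfl fun j _ => Equiv.sum_comp
    (Equiv.mulLeft (⟨a ^ j, npow_mem_zpowers a j⟩ : zpowers a)) fun h : zpowers a => χ h

/-- The Brauer lift. -/
theorem Unif.exists_lift {ℓ : ℕ} [Fact ℓ.Prime] (ρ : G →* Matrix n n (ZMod ℓ)) {L : List G}
    {A : Subgroup G} (h : Unif L A) (hL : ¬ ℓ ∣ L.length) : ∃ χ : G → ℂ,
      (∀ j, j.Coprime L.length → (L.map fun x => χ (x ^ j)).sum = L.length * dS ρ A) ∧
      ∀ a ∈ L, ∀ N, a ^ N = 1 → ∑ j ∈ range N, χ (a ^ j) = N * dg ρ a := by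
  classical
  have := h.finite
  have := Fintype.ofFinite A
  obtain ⟨χ, -, hχ⟩ := Coprime.exists_character_of_zmod (fun e => hL (e.trans h.card_dvd))
    (ρ.comp A.subtype)
  have key : ∀ (H : Subgroup A) [Fintype H],
      ∑ x : H, χ x = Fintype.card H * dS ρ (A.subtype '' H) := fun H _ => by
    obtain ⟨d, h1, h2⟩ := hχ H
    have h3 : Nat.card (fx ρ (A.subtype '' H)) = ℓ ^ d := by
      rw [← h2]
      exact Nat.card_congr (Equiv.subtypeEquivRight fun v => by simp [mem_fx])
    rw [Module.natCard_eq_pow_finrank (K := ZMod ℓ), Nat.card_zmod] at h3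
    rw [dS, Nat.pow_right_injective (Fact.out : ℓ.Prime).two_le h3, ← h1, Char.classInner_one_right,
      Nat.card_eq_fintype_card, mul_inv_cancel_left₀ (by simp)]
  let χ' : G → ℂ := fun g => if hg : g ∈ A then χ ⟨g, hg⟩ else 0
  have h' : ∀ a : A, χ' a = χ a := fun a => dif_pos a.2
  refine ⟨χ', fun j hj => ?_, fun a ha N hN => ?_⟩
  · have h1 := h.sum_eq fun x => χ' (x ^ j)
    have h2 : ∑ a : A, χ' (a ^ j) = Fintype.card A * dS ρ A := by
      have := key ⊤
      rw [Fintype.card_congr topEquiv.toEquiv, Subgroup.coe_top, Set.image_univ,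
        show Set.range A.subtype = A from Subtype.range_coe] at this
      rw [← this, ← Equiv.sum_comp topEquiv.toEquiv.symm]
      exact (sum_congr rfl fun a _ => h' (a ^ j)).trans (Equiv.sum_comp (powCoprime (G := A)
        (n := j) (hj.of_dvd_right h.card_dvd).symm) χ)
    rw [h2, nsmul_eq_mul, nsmul_eq_mul, mul_left_comm] at h1
    exact mul_left_cancel₀ (by simp) h1
  · have h1 := sum_pow_eq χ (a := (⟨a, h.mem a ha⟩ : A)) (N := N) (Subtype.ext hN)
    rw [key, ← Subgroup.coe_map, MonoidHom.map_zpowers, zpowers_eq_closure (A.subtype _), dS, fx_closure, nsmul_eq_mul,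
      nsmul_eq_mul, mul_left_comm] at h1
    rw [← show _ = (N : ℂ) * dg ρ a from mul_left_cancel₀ (by simp) h1]
    exact sum_congr rfl fun j _ => h' (⟨a, h.mem a ha⟩ ^ j)

theorem Unif.avg8 (ρ : G →* Matrix n n (ZMod 3)) {L : List G} {A : Subgroup G} (h : Unif L A)
    {k : ℕ} (hL : L.length = 2 ^ k) (h8 : ∀ x ∈ L, x ^ 8 = 1) :
    (L.map fun x => 2 * (dg ρ x : ℤ) - dg ρ (x ^ 2)).sum = 2 ^ k * dS ρ A := by
  have hc : ∀ j : ℕ, Odd j → j.Coprime L.length := fun j hj =>
    hL ▸ (Nat.coprime_two_right.2 hj).pow_right k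
  obtain ⟨χ, h1, h2⟩ := h.exists_lift ρ fun e => by
    simpa using (hc 3 (by decide)).eq_one_of_dvd e
  have h3 : ∀ x ∈ L, 4 * ((2 * (dg ρ x : ℤ) - dg ρ (x ^ 2) : ℤ) : ℂ) =
      χ (x ^ 1) + χ (x ^ 3) + χ (x ^ 5) + χ (x ^ 7) := fun x hx => by
    have e1 := h2 x hx 8 (h8 x hx)
    have e2 := h2 (x ^ 2) (h.mem_list (pow_mem (h.mem x hx) 2)) 4 (by rw [← pow_mul, h8 x hx])
    simp only [sum_range_succ, sum_range_zero, ← pow_mul] at e1 e2
    push_cast at e1 e2 ⊢
    linear_combination e2 - e1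
  have h4 := congrArg List.sum (List.map_congr_left h3)
  simp only [List.sum_map_add, List.sum_map_mul_left] at h4
  rw [h1 1 (hc _ (by decide)), h1 3 (hc _ (by decide)), h1 5 (hc _ (by decide)),
    h1 7 (hc _ (by decide)), hL] at h4
  apply Int.cast_injective (α := ℂ)
  rw [Int.cast_list_sum, List.map_map, Function.comp_def]
  push_cast at h4 ⊢
  linear_combination (exp := 1) h4 / 4

theorem Unif.avg10 (ρ : G →* Matrix n n (ZMod 3)) {L : List G} {A : Subgroup G} (h : Unif L A)
    (hL : L.length = 80) (h10 : ∀ x ∈ L, x ^ 10 = 1) :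
    (L.map fun x => 10 * (dg ρ x : ℤ) - 5 * dg ρ (x ^ 2) - 2 * dg ρ (x ^ 5) + Fintype.card n).sum =
      320 * dS ρ A := by
  obtain ⟨χ, h1, h2⟩ := h.exists_lift ρ (by rw [hL]; decide)
  have h3 : ∀ x ∈ L, ((10 * (dg ρ x : ℤ) - 5 * dg ρ (x ^ 2) - 2 * dg ρ (x ^ 5) +
      Fintype.card n : ℤ) : ℂ) = χ (x ^ 1) + χ (x ^ 3) + χ (x ^ 7) + χ (x ^ 9) := fun x hx => by
    have e1 := h2 x hx 10 (h10 x hx)
    have e2 := h2 (x ^ 2) (h.mem_list (pow_mem (h.mem x hx) 2)) 5 (by rw [← pow_mul, h10 x hx])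
    have e3 := h2 (x ^ 5) (h.mem_list (pow_mem (h.mem x hx) 5)) 2 (by rw [← pow_mul, h10 x hx])
    have e4 := h2 1 h.one 1 (one_pow 1)
    simp only [sum_range_succ, sum_range_zero, ← pow_mul, dg_one, pow_zero, mul_zero] at e1 e2 e3 e4
    push_cast at e1 e2 e3 e4 ⊢
    linear_combination e2 + e3 - e1 - e4
  have h4 := congrArg List.sum (List.map_congr_left h3)
  simp only [List.sum_map_add] at h4
  rw [hL] at h1
  rw [h1 1 (by decide), h1 3 (by decide), h1 7 (by decide), h1 9 (by decide)] at h4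
  apply Int.cast_injective (α := ℂ)
  rw [Int.cast_list_sum, List.map_map, Function.comp_def]
  push_cast at h4 ⊢
  linear_combination (exp := 1) h4

end Cfsg.Lib.E8N
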