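import Cfsg.Agent.Lib.E8N.Mdl
import Cfsg.Agent.Lib.E8N.F32
import Cfsg.Prelude.Def_Classical

/-! Codes of matrices over small fields. -/

set_option autoImplicit false

namespace Cfsg.Lib.E8N

open Matrix Finset Subgroup Cfsg.Lib.Calc Cfsg.Lib.Asch

/-- Arithmetic of digits. -/
structure DOps where
  w : ℕ
  ad : ℕ → ℕ → ℕ
  ml : ℕ → ℕ → ℕ
  rd : ℕ → ℕ

namespace DOps

variable (d : DOps) (n : ℕ)

/-- An entry of a code. -/
def ent (c i j : ℕ) : ℕ := get d.w c (Nat.add (Nat.mul n i) j)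

/-- The code with given entries. -/
noncomputable def mkc (f : ℕ → ℕ → ℕ) : ℕ :=
  pack d.w (fun t => forceN (Nat.div t n) fun i => forceN (Nat.mod t n) fun j => d.rd (f i j)) (Nat.mul n n)

/-- The product. -/
noncomputable def mm (a b : ℕ) : ℕ := forceN a fun a => forceN b fun b => d.mkc n fun i j =>
  Nat.rec (motive := fun _ => ℕ) 0 (fun k ih => d.ad ih (d.ml (d.ent n a i k) (d.ent n b k j))) n

/-- The product with a scalar. -/
noncomputable def sc (z a : ℕ) : ℕ := d.mkc n fun i j => d.ml z (d.ent n a i j)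

/-- The transpose. -/
noncomputable def tr (a : ℕ) : ℕ := d.mkc n fun i j => d.ent n a j i

/-- The least of the multiples by some scalars. -/
noncomputable def nf (Z : List ℕ) (a : ℕ) : ℕ :=
  List.rec a (fun z _ ih => forceN (d.sc n z a) fun x => forceN ih fun y => cnd (Nat.ble x y) x y) Z

/-- The product up to scalars. -/
noncomputable def mu (Z : List ℕ) (a b : ℕ) : ℕ := forceN (d.mm n a b) (d.nf n Z)

theorem nf_eq (Z : List ℕ) (a : ℕ) : d.nf n Z a = a ∨ ∃ z ∈ Z, d.nf n Z a = d.sc n z a := by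
  induction Z with
  | nil => exact .inl rfl
  | cons z Z ih =>
    have : d.nf n (z :: Z) a = forceN (d.sc n z a) fun x => forceN (d.nf n Z a) fun y =>
      cnd (Nat.ble x y) x y := rfl
    rw [this, forceN_eq, forceN_eq]
    cases Nat.ble (d.sc n z a) (d.nf n Z a)
    · exact ih.imp_right fun ⟨y, hy, e⟩ => ⟨y, List.mem_cons_of_mem _ hy, e⟩
    · exact .inr ⟨z, List.mem_cons_self, rfl⟩

variable {F : Type*} [Field F] (v : ℕ → F)

/-- The matrix of a code. -/
def mat (c : ℕ) : Matrix (Fin n) (Fin n) F := of fun i j => v (d.ent n c i j)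

/-- The digits describe a field. -/
structure Good : Prop where
  ad : ∀ a b, v (d.ad a b) = v a + v b
  ml : ∀ a b, v (d.ml a b) = v a * v b
  rd : ∀ a, v (d.rd a) = v a
  lt : ∀ a, d.rd a < 2 ^ d.w
  zero : v 0 = 0
  inj : ∀ a b, v a = v b → d.rd a = d.rd b

namespace Good

variable {d n v} (h : d.Good v)
include h

theorem mat_mkc (f : ℕ → ℕ → ℕ) : d.mat n v (d.mkc n f) = of fun i j : Fin n => v (f i j) := by
  ext i j
  have h1 : n * i + j < n * n := by nlinarith [i.2, j.2]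
  have h2 : (n * i + j) / n = i := by
    rw [Nat.mul_add_div i.pos, Nat.div_eq_of_lt j.2, add_zero]
  have h3 : (n * i + j) % n = j := by rw [Nat.mul_add_mod, Nat.mod_eq_of_lt j.2]
  refine (congrArg v (get_pack (fun t _ => by simpa using h.lt _) h1)).trans ?_
  rw [forceN_eq, forceN_eq, h.rd]
  exact congrArg₂ (fun a b => v (f a b)) h2 h3

theorem mkc_congr {f g : ℕ → ℕ → ℕ} (e : d.mat n v (d.mkc n f) = d.mat n v (d.mkc n g)) :
    d.mkc n f = d.mkc n g := by
  rw [h.mat_mkc, h.mat_mkc] at e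
  refine pack_congr fun t ht => ?_
  have hn : 0 < n := Nat.pos_of_ne_zero (by rintro rfl; exact absurd ht (Nat.not_lt_zero _))
  simp only [forceN_eq]
  exact h.inj _ _ (congrFun (congrFun e ⟨t / n, Nat.div_lt_of_lt_mul ht⟩) ⟨t % n, Nat.mod_lt _ hn⟩)

theorem mat_mm (a b : ℕ) : d.mat n v (d.mm n a b) = d.mat n v a * d.mat n v b := by
  rw [mm, forceN_eq, forceN_eq, h.mat_mkc]
  ext i j
  have : ∀ m, v (Nat.rec (motive := fun _ => ℕ) 0
      (fun k ih => d.ad ih (d.ml (d.ent n a i k) (d.ent n b k j))) m) =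
      ∑ k ∈ range m, v (d.ent n a i k) * v (d.ent n b k j) := fun m => by
    induction m with
    | zero => exact h.zero
    | succ m ih => rw [sum_range_succ, ← ih, ← h.ml, ← h.ad]
  rw [of_apply, this, mul_apply, sum_range]
  rfl

theorem mat_sc (z a : ℕ) : d.mat n v (d.sc n z a) = v z • d.mat n v a := by
  rw [sc, h.mat_mkc]
  ext i j
  exact h.ml _ _

theorem mat_tr (a : ℕ) : d.mat n v (d.tr n a) = (d.mat n v a)ᵀ := h.mat_mkc _

open Classical in
theorem mdl {X G : Type*} [Group X] [Group G] (M : X →* Matrix (Fin n) (Fin n) F)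
    (hM : Function.Injective M) (ψ : X →* G) (hψ : ψ.ker = center X) {Z : List ℕ}
    {one : ℕ} (h1 : d.mat n v one = 1) {ok : ℕ → Bool}
    (hZ : allL Z (fun z => ok (d.sc n z one)) = true) (hok : ∀ a, ok a = true → ∃ s, M s = d.mat n v a) :
    ∃ el : ℕ → G, Mdl el (fun a => ∃ s, M s = d.mat n v a) (d.mu n Z) (d.mm n) one ok := by
  let el : ℕ → G := fun a => if h : ∃ s, M s = d.mat n v a then ψ h.choose else 1
  have e1 : ∀ {s a}, M s = d.mat n v a → el a = ψ s := fun {s a} e => by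
    have : ∃ s, M s = d.mat n v a := ⟨s, e⟩
    simp only [el, dif_pos this, hM (this.choose_spec.trans e.symm)]
  have e2 : ∀ {s t a b}, M s = d.mat n v a → M t = d.mat n v b →
      ∃ u, M u = d.mat n v (d.mu n Z a b) ∧ ψ u = ψ s * ψ t := fun {s t a b} ha hb => by
    rw [mu, forceN_eq]
    obtain e | ⟨z, hz, e⟩ := d.nf_eq n Z (d.mm n a b)
    · exact ⟨s * t, by rw [e, h.mat_mm, map_mul, ha, hb], map_mul _ _ _⟩
    · obtain ⟨u, hu⟩ := hok _ (allL_iff.1 hZ z hz)
      rw [h.mat_sc, h1] at hu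
      refine ⟨u * (s * t), by rw [e, h.mat_sc, h.mat_mm, map_mul, map_mul, ha, hb, hu]; simp, ?_⟩
      have : u ∈ ψ.ker := hψ ▸ mem_center_iff.2 fun g => hM (by simp [hu])
      rw [map_mul, map_mul, MonoidHom.mem_ker.1 this, one_mul]
  refine ⟨el, ⟨1, by rw [h1, map_one]⟩, (e1 (by rw [h1, map_one])).trans (map_one ψ),
    fun ⟨s, hs⟩ ⟨t, ht⟩ => (e2 hs ht).imp fun _ e => e.1, fun ⟨s, hs⟩ ⟨t, ht⟩ => ?_, hok _,
    fun {a b} ⟨s, hs⟩ ⟨t, ht⟩ hne e => hne ?_⟩
  · obtain ⟨u, hu, e⟩ := e2 hs ht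
    rw [e1 hu, e1 hs, e1 ht, e]
  · have : s ∈ center X := hψ ▸ MonoidHom.mem_ker.2 ((e1 hs).symm.trans e)
    have e3 : d.mat n v (d.mm n a b) = d.mat n v (d.mm n b a) := by
      rw [h.mat_mm, h.mat_mm, ← hs, ← ht, ← map_mul, ← map_mul, mem_center_iff.1 this t]
    simp only [mm, forceN_eq] at e3 ⊢
    exact h.mkc_congr e3

end Good

end DOps

/-- The digits of the field with three elements. -/
def d3o : DOps := ⟨2, Nat.add, Nat.mul, fun a => Nat.mod a 3⟩

theorem good3 : d3o.Good (Nat.cast : ℕ → ZMod 3) where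
  ad := Nat.cast_add
  ml := Nat.cast_mul
  rd a := ZMod.natCast_mod a 3
  lt a := (Nat.mod_lt a (by decide)).trans (by decide)
  zero := Nat.cast_zero
  inj a b e := (ZMod.natCast_eq_natCast_iff' a b 3).1 e

/-- The digits of a field given by tables. -/
def dT (w N A M : ℕ) : DOps :=
  ⟨w, fun a b => Nat.mod (Nat.shiftRight A (Nat.mul 5 (Nat.add (Nat.mul (Nat.mod a N) N) (Nat.mod b N)))) 32,
    fun a b => Nat.mod (Nat.shiftRight M (Nat.mul 5 (Nat.add (Nat.mul (Nat.mod a N) N) (Nat.mod b N)))) 32,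
    fun a => Nat.mod a N⟩

theorem goodT {w N A M I m : ℕ} [NeZero N] (hN : N ≤ 2 ^ w) {F : Type*} [Field F]
    (σ : TF N A M I m → F) (h0 : σ 0 = 0) (ha : ∀ a b, σ (a + b) = σ a + σ b)
    (hm : ∀ a b, σ (a * b) = σ a * σ b) (hi : Function.Injective σ) :
    (dT w N A M).Good fun a => σ (TF.c a) where
  ad a b := ha (TF.c a) (TF.c b)
  ml a b := hm (TF.c a) (TF.c b)
  rd a := congrArg (fun x => σ ⟨x⟩) (Fin.ext (Nat.mod_mod a N))
  lt a := (Nat.mod_lt a (NeZero.pos N)).trans_le hN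
  zero := h0
  inj _ _ e := congrArg (fun x : TF N A M I m => x.val.val) (hi e)

variable {G : Type*} [Group G]

theorem ker_comp {X : Type*} [Group X] {H : Subgroup G} (e : H ≃* X ⧸ center X) :
    ((H.subtype.comp e.symm.toMonoidHom).comp (QuotientGroup.mk' _)).ker = center X := by
  ext x
  simp

/-- The multiplication of codes of `6 × 6` matrices over the field with 3 elements, up to sign. -/
noncomputable def muS : ℕ → ℕ → ℕ := d3o.mu 6 [2]

/-- The check that a code is symplectic. -/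
noncomputable def okS (a : ℕ) : Bool :=
  Nat.beq (d3o.mm 6 (d3o.mm 6 a 0x10004001800200080) (d3o.tr 6 a)) 0x10004001800200080

theorem mdl_sp {ψ : symplecticGroup (Fin 3) (ZMod 3) →* G} (hψ : ψ.ker = center _) :
    ∃ (el : ℕ → G) (Ok : ℕ → Prop), Mdl el Ok muS (d3o.mm 6) 0x400100040010004001 okS := by
  let e := reindexAlgEquiv (ZMod 3) (ZMod 3) (finSumFinEquiv : Fin 3 ⊕ Fin 3 ≃ Fin 6)
  have hJ : d3o.mat 6 Nat.cast 0x10004001800200080 = e (J (Fin 3) (ZMod 3)) := by decide +kernel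
  refine (good3.mdl (n := 6) (e.toMonoidHom.comp (Submonoid.subtype _))
    (e.injective.comp Subtype.val_injective) ψ hψ (by decide +kernel) (by decide +kernel)
    fun a ha => ?_).imp fun _ h => ⟨_, h⟩
  have := congrArg (d3o.mat 6 (Nat.cast : ℕ → ZMod 3)) (beq_iff.1 ha)
  rw [good3.mat_mm, good3.mat_mm, good3.mat_tr, hJ] at this
  generalize d3o.mat 6 (Nat.cast : ℕ → ZMod 3) a = A at this ⊢
  obtain ⟨B, rfl⟩ := e.surjective A
  refine ⟨⟨B, SymplecticGroup.mem_iff.2 (e.injective ?_)⟩, rfl⟩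
  rw [map_mul, map_mul]
  exact this

/-- The digits of the field with 9 elements. -/
def d9o : DOps := dT 4 9
  0x41942011cc819480104c839483104083982011cc820ca0104c838ca410408398a419cc820ca1008c838ca400828398a418820
  0x6094433910008d06110a70150221c233004620c283940311c262a08039028288c3010a33a0c11010731483104000000000000

/-- A minor of order two. -/
noncomputable def DOps.mn (d : DOps) (n m a r s k l : ℕ) : ℕ :=
  d.ad (d.ml (d.ent n a r k) (d.ent n a s l)) (d.ml m (d.ml (d.ent n a r l) (d.ent n a s k)))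

/-- The multiplication of codes of `4 × 4` matrices over the field with 9 elements, up to scalars. -/
noncomputable def muU : ℕ → ℕ → ℕ := d9o.mu 4 [2, 3, 6]

/-- The check that a code is special unitary. -/
noncomputable def okU (a : ℕ) : Bool :=
  band (Nat.beq (d9o.mm 4 (d9o.tr 4 a) (d9o.mkc 4 fun i j => forceN (d9o.ent 4 a i j) fun x =>
    d9o.ml x (d9o.ml x x))) 0x1000010000100001) (Nat.beq (d9o.ad
      (d9o.ad (d9o.ad (d9o.ml (d9o.mn 4 2 a 0 1 0 1) (d9o.mn 4 2 a 2 3 2 3))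
        (d9o.ml (d9o.mn 4 2 a 0 1 0 2) (d9o.mn 4 2 a 2 3 3 1)))
      (d9o.ad (d9o.ml (d9o.mn 4 2 a 0 1 0 3) (d9o.mn 4 2 a 2 3 1 2))
        (d9o.ml (d9o.mn 4 2 a 0 1 1 2) (d9o.mn 4 2 a 2 3 0 3))))
      (d9o.ad (d9o.ml (d9o.mn 4 2 a 0 1 1 3) (d9o.mn 4 2 a 2 3 2 0))
        (d9o.ml (d9o.mn 4 2 a 0 1 2 3) (d9o.mn 4 2 a 2 3 0 1)))) 1)

theorem mat_one {N A M I m w n c : ℕ} [NeZero N] {F : Type*} [Field F] (σ : TF N A M I m → F)
    (h0 : σ 0 = 0) (h1 : σ 1 = 1) (h : ∀ i j : Fin n, (dT w N A M).ent n c i j = if i = j then 1 else 0) :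
    (dT w N A M).mat n (fun a => σ (TF.c a)) c = 1 := by
  ext i j
  rw [DOps.mat, of_apply, h, one_apply]
  split_ifs
  exacts [h1, h0]

theorem mdl_su {F : Type*} [Field F] [Fintype F] (hF : Fintype.card F = 9) {ψ : SU 4 F 3 →* G}
    (hψ : ψ.ker = center _) :
    ∃ (el : ℕ → G) (Ok : ℕ → Prop), Mdl el Ok muU (d9o.mm 4) 0x1000010000100001 okU := by
  let σ : F9 ≃+* F := FiniteField.ringEquivOfCardEq (card_F9.trans hF.symm)
  have hg : d9o.Good fun a => σ (TF.c a) :=
    goodT (by decide) σ (map_zero σ) (map_add σ) (map_mul σ) σ.injective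
  have h1 : d9o.mat 4 (fun a => σ (TF.c a)) 0x1000010000100001 = 1 :=
    mat_one σ (map_zero σ) (map_one σ) (by decide +kernel)
  have h2 : σ (TF.c 2) = -1 := by
    rw [← map_one σ, ← map_neg]; exact congrArg σ (by decide +kernel)
  have : CharP F 3 := (CharP.charP_iff_prime_eq_zero Nat.prime_three).2 (by
    rw [← map_natCast σ, ← map_zero σ]; exact congrArg σ (by decide +kernel))
  refine (hg.mdl (n := 4) ((slToMat 4 F).comp (Subgroup.subtype _))
    (Subtype.val_injective.comp Subtype.val_injective) ψ hψ h1 (by decide +kernel)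
    fun a ha => ?_).imp fun _ h => ⟨_, h⟩
  obtain ⟨h3, h4⟩ := band_eq_true.1 ha
  have h5 := congrArg (d9o.mat 4 fun a => σ (TF.c a)) (beq_iff.1 h3)
  have h6 := congrArg (fun a => σ (TF.c a)) (beq_iff.1 h4)
  rw [hg.mat_mm, hg.mat_tr, hg.mat_mkc, h1] at h5
  simp only [hg.ad, hg.ml, DOps.mn, h2, forceN_eq] at h5 h6
  refine ⟨⟨⟨d9o.mat 4 (fun a => σ (TF.c a)) a, ?_⟩, fun u v => ?_⟩, rfl⟩
  · rw [← map_one σ]
    refine .trans ?_ h6
    simp [det_succ_row_zero, Fin.sum_univ_succ, DOps.mat, Fin.succAbove]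
    ring
  · have h7 : ∀ (A : Matrix (Fin 4) (Fin 4) F) (u v : Fin 4 → F), hermForm 4 F 3 (A *ᵥ u) (A *ᵥ v) =
        u ⬝ᵥ (Aᵀ * A.map (frobenius F 3)) *ᵥ (frobenius F 3 ∘ v) := fun A u v => by
      rw [← mulVec_mulVec, dotProduct_mulVec, vecMul_transpose]
      exact sum_congr rfl fun i _ => congrArg _ (RingHom.map_mulVec (frobenius F 3) A v i)
    refine (h7 (d9o.mat 4 (fun a => σ (TF.c a)) a) u v).trans ?_
    rw [show (d9o.mat 4 (fun a => σ (TF.c a)) a).map (frobenius F 3) = of fun i j : Fin 4 =>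
      σ (TF.c (d9o.ent 4 a i j)) * (σ (TF.c (d9o.ent 4 a i j)) * σ (TF.c (d9o.ent 4 a i j))) from
      Matrix.ext fun i j => pow_three _, h5, one_mulVec]
    rfl

/-- The digits of the field with 32 elements. -/
def d32o : DOps := dT 5 32 tA32 tM32

/-- The multiplication of codes of `2 × 2` matrices over the field with 32 elements. -/
noncomputable def muL : ℕ → ℕ → ℕ := d32o.mu 2 []

/-- The check that a code has determinant one. -/
noncomputable def okL (a : ℕ) : Bool := Nat.beq (d32o.mn 2 1 a 0 1 0 1) 1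

theorem mdl_sl {F : Type*} [Field F] [Fintype F] (hF : Fintype.card F = 32)
    {ψ : SpecialLinearGroup (Fin 2) F →* G} (hψ : ψ.ker = center _) :
    ∃ (el : ℕ → G) (Ok : ℕ → Prop), Mdl el Ok muL (d32o.mm 2) 0x8001 okL := by
  let σ : F32 ≃+* F := FiniteField.ringEquivOfCardEq (TF.card.trans hF.symm)
  have hg : d32o.Good fun a => σ (TF.c a) :=
    goodT (by decide) σ (map_zero σ) (map_add σ) (map_mul σ) σ.injective
  have h2 : σ (TF.c 1) = -1 := by
    rw [← map_one σ, ← map_neg]; exact congrArg σ (by decide +kernel)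
  refine (hg.mdl (n := 2) (slToMat 2 F) Subtype.val_injective ψ hψ
    (mat_one σ (map_zero σ) (map_one σ) (by decide +kernel)) rfl fun a ha => ?_).imp fun _ h => ⟨_, h⟩
  have h6 := congrArg (fun a => σ (TF.c a)) (beq_iff.1 ha)
  simp only [hg.ad, hg.ml, DOps.mn] at h6
  refine ⟨⟨d32o.mat 2 (fun a => σ (TF.c a)) a, ?_⟩, rfl⟩
  rw [← map_one σ, det_fin_two]
  refine .trans ?_ h6
  rw [h2, neg_one_mul, sub_eq_add_neg]
  rfl

end Cfsg.Lib.E8N
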