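import Cfsg.Agent.Lib.E8N.Lin
import Cfsg.Agent.Lib.Calc.Basic

/-! Groups given by codes: lists of elements of small subgroups with their conjugacy classes. -/

set_option autoImplicit false

namespace Cfsg.Lib.E8N

open Matrix Finset Subgroup Cfsg.Lib.Calc

/-- Evaluate the members of a list first. -/
noncomputable def forceL (l : List ℕ) : (List ℕ → Bool) → Bool :=
  List.rec (fun k => k []) (fun a _ ih k => forceB a fun a => ih fun t => k (a :: t)) l

@[simp] theorem forceL_eq (l : List ℕ) (k : List ℕ → Bool) : forceL l k = k l := by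
  induction l generalizing k with
  | nil => rfl
  | cons a l ih => exact (forceB_eq a fun a => forceL l fun t => k (a :: t)).trans (ih _)

/-- The list `L ++ f L ++ ⋯ ++ f^m L`. -/
noncomputable def extL {α : Type*} (f : α → α) (m : ℕ) (L : List α) : List α :=
  Nat.rec L (fun _ ih => L ++ ih.map f) m

theorem extL_succ {α : Type*} (f : α → α) (m : ℕ) (L : List α) :
    extL f (m + 1) L = L ++ (extL f m L).map f := rfl

theorem extL_succ' {α : Type*} (f : α → α) (m : ℕ) (L : List α) :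
    extL f (m + 1) L = L ++ extL f m (L.map f) := by
  induction m generalizing L with
  | zero => rfl
  | succ m ih => rw [extL_succ, ih, extL_succ, List.map_append, ← List.map_append, ← ih, ih,
      List.map_append]

theorem extL_mul {G : Type*} [Group G] (g : G) (m : ℕ) (L : List G) :
    extL (g * ·) m L = (List.range (m + 1)).flatMap fun i => L.map (g ^ i * ·) := by
  induction m with
  | zero => simp [extL]
  | succ m ih =>
    rw [extL_succ, ih, List.range_succ_eq_map (n := m + 1), List.flatMap_cons, List.flatMap_map,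
      List.map_flatMap]
    simp [Function.comp_def, pow_succ', mul_assoc]

/-- Powers of a code. -/
noncomputable def pw (mu : ℕ → ℕ → ℕ) (one g k : ℕ) : ℕ := Nat.rec one (fun _ ih => mu g ih) k

/-- The value of a word in two codes. -/
noncomputable def wd2 (mu : ℕ → ℕ → ℕ) (one a b : ℕ) (w : List Bool) : ℕ :=
  List.rec one (fun t _ ih => mu (cnd t a b) ih) w

/-- The list of the elements of a group with a polycyclic sequence. -/
noncomputable def pc (mu : ℕ → ℕ → ℕ) (one : ℕ) (ok : ℕ → Bool) (gs : List (ℕ × ℕ)) :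
    List ℕ → List ℕ → (List ℕ → Bool) → Bool :=
  List.rec (fun _ L k => k L) (fun g _ ih P L k => forceL (L.map (mu g.1)) fun L1 =>
    band (band (ok g.1) (allL P fun a => forceB (mu a g.1) fun c => L1.contains c))
      (band (forceB (pw mu one g.1 (g.2 + 2)) fun c => L.contains c)
        (forceL (L ++ extL (mu g.1) g.2 L1) fun L' => ih (g.1 :: P) L' k))) gs

theorem pc_cons (mu : ℕ → ℕ → ℕ) (one : ℕ) (ok : ℕ → Bool) (g : ℕ × ℕ) (gs : List (ℕ × ℕ))
    (P L : List ℕ) (k : List ℕ → Bool) : pc mu one ok (g :: gs) P L k = forceL (L.map (mu g.1)) fun L1 =>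
    band (band (ok g.1) (allL P fun a => forceB (mu a g.1) fun c => L1.contains c))
      (band (forceB (pw mu one g.1 (g.2 + 2)) fun c => L.contains c)
        (forceL (L ++ extL (mu g.1) g.2 L1) fun L' => pc mu one ok gs (g.1 :: P) L' k)) := rfl

/-- A check of conjugacy. -/
noncomputable def cjc (mu : ℕ → ℕ → ℕ) (ok : ℕ → Bool) (r c k : ℕ) : Bool :=
  band (ok k) (Nat.beq (mu c k) (mu k r))

/-- The members of a list are conjugate to given representatives. -/
noncomputable def cjs (mu : ℕ → ℕ → ℕ) (ok : ℕ → Bool) (R : List ℕ) (L : List ℕ) :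
    List (ℕ × ℕ) → Bool :=
  List.rec (fun D => D.isEmpty) (fun c _ ih D => List.rec false (fun d t _ =>
    band (band (blt d.1 R.length) (cjc mu ok (R.getD d.1 0) c d.2)) (ih t)) D) L

/-- A check of one block of a certificate. -/
noncomputable def blk (mu : ℕ → ℕ → ℕ) (one : ℕ) (ok : ℕ → Bool) (P T L : List ℕ) (x : ℕ)
    (b : ℕ × ℕ × ℕ × ℕ × List ℕ) : Bool :=
  band (band (band (ok b.2.1) (ok b.2.2.1)) (Nat.beq b.2.2.2.2.length 5))
    (band (allL (one :: P) fun e => forceB (mu (T.getD b.2.2.2.1 one) (mu e b.2.2.1)) fun c => L.contains c)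
      (allLt 5 fun i => forceB (mu (T.getD (b.2.2.2.2.getD i 0) one)
        (mu b.2.1 (mu (pw mu one x i) b.2.2.1))) fun c => L.contains c))

variable {G : Type*} [Group G]

/-- A partial description of a group by codes. -/
structure Mdl (el : ℕ → G) (Ok : ℕ → Prop) (mu mm : ℕ → ℕ → ℕ) (one : ℕ) (ok : ℕ → Bool) : Prop where
  ok_one : Ok one
  el_one : el one = 1
  ok_mul : ∀ {a b}, Ok a → Ok b → Ok (mu a b)
  el_mul : ∀ {a b}, Ok a → Ok b → el (mu a b) = el a * el b
  of_ok : ∀ {a}, ok a = true → Ok a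
  ne_one : ∀ {a b}, Ok a → Ok b → mm a b ≠ mm b a → el a ≠ 1

namespace Mdl

variable {el : ℕ → G} {Ok : ℕ → Prop} {mu mm : ℕ → ℕ → ℕ} {one : ℕ} {ok : ℕ → Bool}
  (h : Mdl el Ok mu mm one ok)
include h

theorem pw_spec {g : ℕ} (hg : Ok g) (k : ℕ) : Ok (pw mu one g k) ∧ el (pw mu one g k) = el g ^ k := by
  induction k with
  | zero => exact ⟨h.ok_one, h.el_one.trans (pow_zero _).symm⟩
  | succ k ih => exact ⟨h.ok_mul hg ih.1, by rw [pow_succ', ← ih.2, ← h.el_mul hg ih.1]; rfl⟩

theorem pow_eq {g k c : ℕ} (hg : Ok g) (e : pw mu one g k = c) : el g ^ k = el c :=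
  (h.pw_spec hg k).2.symm.trans (congrArg el e)

theorem pow_eq_one {g k : ℕ} (hg : Ok g) (e : pw mu one g k = one) : el g ^ k = 1 :=
  (h.pow_eq hg e).trans h.el_one

theorem wd2_spec {a b : ℕ} (ha : Ok a) (hb : Ok b) (w : List Bool) :
    Ok (wd2 mu one a b w) ∧ el (wd2 mu one a b w) ∈ closure {el a, el b} := by
  induction w with
  | nil => exact ⟨h.ok_one, h.el_one ▸ one_mem _⟩
  | cons t w ih =>
    have : Ok (cnd t a b) ∧ el (cnd t a b) ∈ closure {el a, el b} := by
      cases t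
      exacts [⟨hb, subset_closure (by simp)⟩, ⟨ha, subset_closure (by simp)⟩]
    exact ⟨h.ok_mul this.1 ih.1, (h.el_mul this.1 ih.1).symm ▸ mul_mem this.2 ih.2⟩

theorem isConj {r c k : ℕ} (hr : Ok r) (hc : Ok c) (H : cjc mu ok r c k = true) :
    IsConj (el r) (el c) := by
  rw [cjc, band_eq_true, beq_iff] at H
  have := congrArg el H.2
  rw [h.el_mul hc (h.of_ok H.1), h.el_mul (h.of_ok H.1) hr] at this
  exact isConj_iff.2 ⟨el k, by rw [← this, mul_inv_cancel_right]⟩

theorem extL_spec {g : ℕ} (hg : Ok g) {L : List ℕ} (hL : ∀ c ∈ L, Ok c) (m : ℕ) :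
    (∀ c ∈ extL (mu g) m L, Ok c) ∧ (extL (mu g) m L).map el = extL (el g * ·) m (L.map el) := by
  induction m with
  | zero => exact ⟨hL, rfl⟩
  | succ m ih =>
    rw [extL_succ, extL_succ, List.map_append, ← ih.2, List.map_map, List.map_map]
    refine ⟨fun c hc => (List.mem_append.1 hc).elim (hL c) fun hc => ?_,
      congrArg _ (List.map_congr_left fun c hc => h.el_mul hg (ih.1 c hc))⟩
    obtain ⟨d, hd, rfl⟩ := List.mem_map.1 hc
    exact h.ok_mul hg (ih.1 d hd)

theorem pc_spec {gs : List (ℕ × ℕ)} {P L : List ℕ} {k : List ℕ → Bool} (hP : ∀ a ∈ P, Ok a)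
    (hL : ∀ c ∈ L, Ok c) (hU : Unif (L.map el) (closure (el '' {a | a ∈ P})))
    (H : pc mu one ok gs P L k = true) : ∃ L', k L' = true ∧ (∀ c ∈ L', Ok c) ∧
      (∀ g ∈ gs, Ok g.1) ∧ Unif (L'.map el) (closure (el '' {a | a ∈ gs.map Prod.fst ∨ a ∈ P})) := by
  induction gs generalizing P L with
  | nil => exact ⟨L, H, hL, by simp, by simpa using hU⟩
  | cons g gs ih =>
    rw [pc_cons] at H
    simp only [forceL_eq, forceB_eq, band_eq_true, allL_iff, List.contains_iff_mem, ← extL_succ'] at H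
    obtain ⟨⟨h1, h2⟩, h3, h4⟩ := H
    have hg := h.of_ok h1
    obtain ⟨h5, h6⟩ := h.extL_spec hg hL (g.2 + 1)
    obtain ⟨L', h7, h8, h9, h10⟩ := ih (P := g.1 :: P) (by simpa [hg] using hP) h5 (by
      rw [h6, extL_mul]
      convert hU.step (g := el g.1) (m := g.2 + 1) (fun a ha => ?_)
        (hU.mem _ (List.mem_map.2 ⟨_, h3, (h.pw_spec hg _).2⟩)) using 1
      · rw [zpowers_eq_closure, ← Subgroup.closure_union, ← Set.image_singleton, ← Set.image_union]
        congr 2
        ext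
        simp [or_comm]
      · refine (closure_le (K := comap (MulAut.conj (el g.1)⁻¹).toMonoidHom _)).2 ?_ ha |> fun e => by
          simpa using e
        rintro _ ⟨a, ha, rfl⟩
        obtain ⟨c, hc, e⟩ := List.mem_map.1 (h2 a ha)
        have := congrArg el e
        rw [h.el_mul hg (hL c hc), h.el_mul (hP a ha) hg] at this
        simpa [mul_assoc, ← this] using hU.mem _ (List.mem_map_of_mem hc)) h4
    refine ⟨L', h7, h8, by simpa [hg] using h9, ?_⟩
    convert h10 using 4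
    simp [or_assoc, or_left_comm]

theorem pc_top {gs : List (ℕ × ℕ)} {k : List ℕ → Bool} (H : pc mu one ok gs [] [one] k = true) :
    ∃ L', k L' = true ∧ (∀ c ∈ L', Ok c) ∧ (∀ g ∈ gs, Ok g.1) ∧
      Unif (L'.map el) (closure (el '' {a | a ∈ gs.map Prod.fst})) := by
  simpa only [List.not_mem_nil, or_false] using h.pc_spec (by simp) (by simpa using h.ok_one)
    (by simpa [h.el_one] using unif_one) H

theorem cjs_spec {R L : List ℕ} {D : List (ℕ × ℕ)} (hR : ∀ r ∈ R, Ok r) (hL : ∀ c ∈ L, Ok c)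
    (H : cjs mu ok R L D = true) :
    List.Forall₂ (fun c i => i < R.length ∧ IsConj (el (R.getD i 0)) (el c)) L (D.map Prod.fst) := by
  induction L generalizing D with
  | nil => rw [List.isEmpty_iff.1 H]; exact .nil
  | cons c L ih =>
    obtain _ | ⟨d, D⟩ := D
    · exact absurd H Bool.false_ne_true
    obtain ⟨h1, h2⟩ := band_eq_true.1 H
    rw [band_eq_true, blt_iff] at h1
    refine .cons ⟨h1.1, h.isConj (hR _ ?_) (hL c List.mem_cons_self) h1.2⟩
      (ih (fun c hc => hL c (List.mem_cons_of_mem _ hc)) h2)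
    rw [List.getD_eq_getElem _ _ h1.1]
    exact List.getElem_mem _

theorem exists_unif {gs D : List (ℕ × ℕ)} {R : List ℕ} {N : ℕ}
    (hR : allL R (fun r => band (ok r) (Nat.beq (pw mu one r N) one)) = true)
    (H : pc mu one ok gs [] [one] (fun L => cjs mu ok R L D) = true) :
    ∃ L : List G, Unif L (closure (el '' {a | a ∈ gs.map Prod.fst})) ∧ L.length = D.length ∧
      (∀ x ∈ L, x ^ N = 1) ∧ ∀ f : G → ℤ, (∀ a b, IsConj a b → f a = f b) →
        (L.map f).sum = ∑ i ∈ range R.length, (D.map Prod.fst).count i * f (el (R.getD i 0)) := by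
  simp only [allL_iff, band_eq_true, beq_iff] at hR
  obtain ⟨L, h1, h2, -, h3⟩ := h.pc_top H
  have h4 := h.cjs_spec (fun r hr => h.of_ok (hR r hr).1) h2 h1
  refine ⟨_, h3, by simpa using h4.length_eq, fun x hx => ?_, fun f hf => ?_⟩
  · obtain ⟨c, hc, rfl⟩ := List.mem_map.1 hx
    obtain ⟨j, hj, rfl⟩ := List.getElem_of_mem hc
    obtain ⟨hi, e⟩ := h4.get hj (h4.length_eq ▸ hj)
    generalize (D.map Prod.fst).get _ = i at hi e
    have hr : R.getD i 0 ∈ R := by rw [List.getD_eq_getElem _ _ hi]; exact List.getElem_mem _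
    exact isConj_one_right.1 (h.pow_eq_one (h.of_ok (hR _ hr).1) (hR _ hr).2 ▸ e.pow N)
  · clear h1 h2 h3
    generalize D.map Prod.fst = I at h4
    induction h4 with
    | nil => simp
    | cons e _ ih =>
      simp only [List.map_cons, List.sum_cons, ih, List.count_cons, Nat.cast_add, add_mul,
        sum_add_distrib, ← hf _ _ e.2]
      simp [add_comm, e.1]

variable {n : Type} [Fintype n] [DecidableEq n] (ρ : G →* Matrix n n (ZMod 3))

theorem avg8 {gs D : List (ℕ × ℕ)} {R : List ℕ} {k : ℕ}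
    (hR : allL R (fun r => band (ok r) (Nat.beq (pw mu one r 8) one)) = true)
    (H : pc mu one ok gs [] [one] (fun L => cjs mu ok R L D) = true) (hk : D.length = 2 ^ k) :
    ∑ i ∈ range R.length, (D.map Prod.fst).count i *
      (2 * (dg ρ (el (R.getD i 0)) : ℤ) - dg ρ (el (R.getD i 0) ^ 2)) =
        2 ^ k * dS ρ (el '' {a | a ∈ gs.map Prod.fst}) := by
  obtain ⟨L, h1, h2, h3, h4⟩ := h.exists_unif hR H
  rw [← h4 (fun x => 2 * (dg ρ x : ℤ) - dg ρ (x ^ 2)) fun a b e => by
    rw [dg_isConj e, dg_isConj (e.pow 2)], h1.avg8 ρ (h2.trans hk) h3, dS, fx_closure, dS]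

theorem avg10 {gs D : List (ℕ × ℕ)} {R : List ℕ}
    (hR : allL R (fun r => band (ok r) (Nat.beq (pw mu one r 10) one)) = true)
    (H : pc mu one ok gs [] [one] (fun L => cjs mu ok R L D) = true) (hk : D.length = 80) :
    ∑ i ∈ range R.length, (D.map Prod.fst).count i *
      (10 * (dg ρ (el (R.getD i 0)) : ℤ) - 5 * dg ρ (el (R.getD i 0) ^ 2) -
        2 * dg ρ (el (R.getD i 0) ^ 5) + Fintype.card n) =
        320 * dS ρ (el '' {a | a ∈ gs.map Prod.fst}) := by
  obtain ⟨L, h1, h2, h3, h4⟩ := h.exists_unif hR H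
  rw [← h4 (fun x => 10 * (dg ρ x : ℤ) - 5 * dg ρ (x ^ 2) - 2 * dg ρ (x ^ 5) + Fintype.card n)
    fun a b e => by rw [dg_isConj e, dg_isConj (e.pow 2), dg_isConj (e.pow 5)],
    h1.avg10 ρ (h2.trans hk) h3, dS, fx_closure, dS]

theorem fx_eq_bot {gE gS : List (ℕ × ℕ)} {T : List ℕ} {x : ℕ} {B : List (ℕ × ℕ × ℕ × ℕ × List ℕ)}
    (hx : Ok x) (h5 : el x ^ 5 = 1) (hT : allL T ok = true) (hT0 : T.getD 0 one = one)
    (hE : pc mu one ok gE [] [one] (fun L => forceL (L.map (mu x)) fun L1 =>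
      allL (gE.map Prod.fst) fun e => forceB (mu e x) fun c => L1.contains c) = true)
    (hS : pc mu one ok gS [] [one] (fun L => B.all (blk mu one ok (gE.map Prod.fst) T L x)) = true)
    {K : ℕ} (hK : ∀ p ∈ B.flatMap fun b => (List.replicate b.1 b.2.2.2.2).flatten, p < K)
    (hB : ∀ p < K, (B.flatMap fun b => (List.replicate b.1 b.2.2.2.2).flatten).count p % 3 =
      if p = 0 then 1 else 0) (hK0 : 0 < K)
    (h0 : fx ρ (el '' {a | a ∈ (gE ++ [(x, 3)]).map Prod.fst}) = ⊥) :
    fx ρ (el '' {a | a ∈ gS.map Prod.fst}) = ⊥ := by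
  obtain ⟨LE, e1, e2, e3, e4⟩ := h.pc_top hE
  obtain ⟨LS, s1, s2, -, s4⟩ := h.pc_top hS
  simp only [forceL_eq, forceB_eq, allL_iff, List.contains_iff_mem] at e1 hT
  have e5 : ∀ e ∈ gE.map Prod.fst, Ok e := fun e he => by
    obtain ⟨g, hg, rfl⟩ := List.mem_map.1 he
    exact e3 g hg
  have hT' : ∀ p, Ok (T.getD p one) := fun p => by
    rcases lt_or_ge p T.length with hp | hp
    · rw [List.getD_eq_getElem _ _ hp]; exact h.of_ok (hT _ (List.getElem_mem _))
    · rw [List.getD_eq_default _ _ hp]; exact h.ok_one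
  have h1 : ∀ u ∈ fx ρ (el '' {a | a ∈ gE.map Prod.fst}),
      ρ (el x) *ᵥ u ∈ fx ρ (el '' {a | a ∈ gE.map Prod.fst}) := by
    rintro u hu _ ⟨e, he, rfl⟩
    obtain ⟨c, hc, e6⟩ := List.mem_map.1 (e1 e he)
    rw [← fx_closure] at hu
    rw [← act_mul, ← h.el_mul (e5 e he) hx, ← e6, h.el_mul hx (e2 c hc), act_mul,
      hu _ (e4.mem _ (List.mem_map_of_mem hc))]
  have h2 : ∀ u ∈ fx ρ (el '' {a | a ∈ gE.map Prod.fst}),
      ∑ i ∈ range 5, ρ (el x ^ i) *ᵥ u = 0 := fun u hu => by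
    have h3 : ∀ i, ρ (el x ^ i) *ᵥ u ∈ fx ρ (el '' {a | a ∈ gE.map Prod.fst}) := fun i => by
      induction i with
      | zero => simpa using hu
      | succ i ih => rw [pow_succ', act_mul]; exact h1 _ ih
    rw [← Submodule.mem_bot (ZMod 3), ← h0]
    rintro _ ⟨e, he, rfl⟩
    rw [Set.mem_setOf_eq, List.map_append, List.mem_append] at he
    rcases he with he | he
    · exact Submodule.sum_mem _ (fun i _ => h3 i) _ ⟨e, he, rfl⟩
    · obtain rfl : e = x := by simpa using he
      simp only [sum_range_succ, range_zero, sum_empty, zero_add, mulVec_add, ← act_mul, ← pow_succ']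
      rw [h5, pow_zero]
      abel
  refine eq_bot_iff.2 fun v hv => ?_
  rw [← fx_closure] at hv
  let w : ℕ → n → ZMod 3 := fun p => ρ (el (T.getD p one))⁻¹ *ᵥ v
  have h3 : ∀ p a, Ok a → mu (T.getD p one) a ∈ LS → ρ (el a) *ᵥ v = w p := fun p a ha e => by
    have := hv _ (s4.mem _ (List.mem_map_of_mem e))
    rw [h.el_mul (hT' p) ha, act_mul] at this
    simp only [w]
    rw [← act_inv (ρ := ρ) (el (T.getD p one)) (ρ (el a) *ᵥ v), this]
  have h4 : ∀ b ∈ B, (b.2.2.2.2.map w).sum = 0 := fun b hb => by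
    obtain ⟨c, g, a, q, ps⟩ := b
    have := List.all_eq_true.1 s1 _ hb
    simp only [blk, band_eq_true, forceB_eq, allL_iff, allLt_iff, beq_iff, List.contains_iff_mem] at this
    obtain ⟨⟨⟨b1, b2⟩, b3⟩, b4, b5⟩ := this
    have hg := h.of_ok b1
    have ha := h.of_ok b2
    have b6 := h3 q _ (h.ok_mul h.ok_one ha) (b4 one List.mem_cons_self)
    rw [h.el_mul h.ok_one ha, h.el_one, one_mul] at b6
    have b7 := congrArg (ρ (el g) *ᵥ ·) (h2 (ρ (el a) *ᵥ v) (by
      rintro _ ⟨e, he, rfl⟩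
      rw [← act_mul, ← h.el_mul (e5 e he) ha, b6]
      exact h3 q _ (h.ok_mul (e5 e he) ha) (b4 e (List.mem_cons_of_mem _ he))))
    have b8 : ∀ i ∈ range 5, ρ (el g) *ᵥ ρ (el x ^ i) *ᵥ ρ (el a) *ᵥ v = w (ps.getD i 0) := fun i hi => by
      have := h.pw_spec hx i
      rw [← h3 _ _ (h.ok_mul hg (h.ok_mul this.1 ha)) (b5 i (mem_range.1 hi)), h.el_mul hg
        (h.ok_mul this.1 ha), h.el_mul this.1 ha, this.2, act_mul, act_mul]
    simp only [mulVec_sum, mulVec_zero, sum_congr rfl b8] at b7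
    rw [← b7]
    rcases ps with _ | ⟨_, _ | ⟨_, _ | ⟨_, _ | ⟨_, _ | ⟨_, _ | _⟩⟩⟩⟩⟩ <;> simp at b3
    simp [sum_range_succ, add_assoc]
  have h6 : ((B.flatMap fun b => (List.replicate b.1 b.2.2.2.2).flatten).map w).sum = 0 := by
    rw [List.map_flatMap, List.flatMap, List.sum_flatten, List.map_map]
    refine List.sum_eq_zero fun y hy => ?_
    obtain ⟨b, hb, rfl⟩ := List.mem_map.1 hy
    simp [List.sum_flatten, h4 b hb]
  generalize (B.flatMap fun b => (List.replicate b.1 b.2.2.2.2).flatten) = Q at hK hB h6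
  rw [sum_list_map_count, sum_subset (s₂ := range K) (fun p hp => mem_range.2 (hK p (List.mem_toFinset.1 hp)))
    fun p _ hp => by rw [List.count_eq_zero.2 (mt List.mem_toFinset.2 hp), zero_smul],
    sum_eq_single_of_mem 0 (mem_range.2 hK0) fun p hp h0 => by
      rw [← Nat.cast_smul_eq_nsmul (ZMod 3), ← ZMod.natCast_mod, hB p (mem_range.1 hp), if_neg h0]
      simp, ← Nat.cast_smul_eq_nsmul (ZMod 3), ← ZMod.natCast_mod, hB 0 hK0] at h6
  simpa [w, -List.getD_eq_getElem?_getD, hT0, h.el_one] using h6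

end Mdl

end Cfsg.Lib.E8N
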